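import Mathlib
import Cfsg.Prelude.Def_BaumannBlocks
import Cfsg.Agent.Lib.Helper50.LargeAbelian

set_option autoImplicit false
open scoped Pointwise commutatorElement

namespace Cfsg.Agent.Lib.Helper50

variable {G : Type*} [Group G]

/-- If `Q = X ⊔ Z` with `Z` centralizing `Q`, then `[Q, Q] = [X, X]`. -/
theorem commutator_eq_of_sup_central (Q X Z : Subgroup G) (hQ : Q = X ⊔ Z)
    (hZ : Z ≤ Subgroup.centralizer (Q : Set G)) : ⁅Q, Q⁆ = ⁅X, X⁆ := by
  have hXQ : X ≤ Q := hQ ▸ le_sup_left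
  have hZQ : Z ≤ Q := hQ ▸ le_sup_right
  apply le_antisymm
  · rw [Subgroup.commutator_le]
    intro g₁ hg₁ g₂ hg₂
    have hZX : Z ≤ Subgroup.centralizer (X : Set G) :=
      hZ.trans (Subgroup.centralizer_le (SetLike.coe_subset_coe.mpr hXQ))
    rw [hQ] at hg₁ hg₂
    obtain ⟨x₁, hx₁, z₁, hz₁, rfl⟩ := exists_mul_of_mem_sup_of_le_centralizer X Z hZX hg₁
    obtain ⟨x₂, hx₂, z₂, hz₂, rfl⟩ := exists_mul_of_mem_sup_of_le_centralizer X Z hZX hg₂
    have c1 : ∀ y ∈ Q, y * z₁ = z₁ * y := fun y hy => (Subgroup.mem_centralizer_iff.mp (hZ hz₁)) y hy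
    have c2 : ∀ y ∈ Q, y * z₂ = z₂ * y := fun y hy => (Subgroup.mem_centralizer_iff.mp (hZ hz₂)) y hy
    have e1 : z₁ * (x₂ * z₂) * z₁⁻¹ = x₂ * z₂ := by
      rw [← c1 (x₂ * z₂) (Q.mul_mem (hXQ hx₂) (hZQ hz₂))]; group
    have e2 : z₂ * x₁⁻¹ * z₂⁻¹ = x₁⁻¹ := by
      rw [← c2 x₁⁻¹ (Q.inv_mem (hXQ hx₁))]; group
    have : ⁅x₁ * z₁, x₂ * z₂⁆ = ⁅x₁, x₂⁆ := by
      rw [commutatorElement_def, commutatorElement_def]
      calc x₁ * z₁ * (x₂ * z₂) * (x₁ * z₁)⁻¹ * (x₂ * z₂)⁻¹
          = x₁ * (z₁ * (x₂ * z₂) * z₁⁻¹) * x₁⁻¹ * (x₂ * z₂)⁻¹ := by group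
        _ = x₁ * (x₂ * z₂) * x₁⁻¹ * (x₂ * z₂)⁻¹ := by rw [e1]
        _ = x₁ * x₂ * (z₂ * x₁⁻¹ * z₂⁻¹) * x₂⁻¹ := by group
        _ = x₁ * x₂ * x₁⁻¹ * x₂⁻¹ := by rw [e2]
    rw [this]
    exact Subgroup.commutator_mem_commutator hx₁ hx₂
  · exact Subgroup.commutator_mono hXQ hXQ

section

variable [Finite G]

/-- For a minimal centrally large `Q` and a centrally large `R`: `Q = (Q ∩ R) C(Q)`. -/
theorem minimalCL_inf_sup_centralizer (Q R : Subgroup G) (hQ : Cfsg.IsMinimalCentrallyLarge Q)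
    (hR : Cfsg.IsCentrallyLarge R) : (Q ⊓ R) ⊔ Subgroup.centralizer (Q : Set G) = Q := by
  obtain ⟨hQm, hZQ⟩ := isCentralizerLarge_of_isCentrallyLarge Q hQ.1
  obtain ⟨hRm, hZR⟩ := isCentralizerLarge_of_isCentrallyLarge R hR
  obtain ⟨-, -, hX, hCset, hCX⟩ := chermak_delgado Q R hQm hRm
  obtain ⟨hZm, hQQ⟩ := chermak_delgado_centralizer Q hQm
  obtain ⟨-, hY, -, -, -⟩ := chermak_delgado (Q ⊓ R) (Subgroup.centralizer (Q : Set G)) hX hZm
  have hYle : (Q ⊓ R) ⊔ Subgroup.centralizer (Q : Set G) ≤ Q := sup_le inf_le_left hZQ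
  have hYCL : Cfsg.IsCentrallyLarge ((Q ⊓ R) ⊔ Subgroup.centralizer (Q : Set G)) := by
    apply isCentrallyLarge_of_isCentralizerLarge _ hY
    rw [centralizer_sup_eq, hCX, ← hQQ]
    rintro x ⟨hx1, hx2⟩
    have hx1' : x ∈ ((Subgroup.centralizer (Q : Set G) ⊔ Subgroup.centralizer (R : Set G) :
        Subgroup G) : Set G) := hx1
    rw [hCset] at hx1'
    obtain ⟨c, hc, c', hc', rfl⟩ := hx1'
    have hc'Q : c' ∈ Q := by
      have := Q.mul_mem (Q.inv_mem (hZQ hc)) hx2
      simpa using this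
    rw [sup_comm]
    exact Subgroup.mul_mem_sup hc ⟨hc'Q, hZR hc'⟩
  exact hQ.2 _ hYle hYCL

theorem minimalCL_commutator_eq (Q R : Subgroup G) (hQ : Cfsg.IsMinimalCentrallyLarge Q)
    (hR : Cfsg.IsMinimalCentrallyLarge R) : ⁅Q, Q⁆ = ⁅R, R⁆ := by
  have h1 := commutator_eq_of_sup_central Q (Q ⊓ R) (Subgroup.centralizer (Q : Set G))
    (minimalCL_inf_sup_centralizer Q R hQ hR.1).symm le_rfl
  have h2 := commutator_eq_of_sup_central R (R ⊓ Q) (Subgroup.centralizer (R : Set G))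
    (minimalCL_inf_sup_centralizer R Q hR hQ.1).symm le_rfl
  rw [h1, h2, inf_comm]

theorem minimalCL_inf_centralizer (Q R : Subgroup G) (hQ : Cfsg.IsCentrallyLarge Q)
    (hR : Cfsg.IsMinimalCentrallyLarge R) :
    (Q ⊓ R) ⊓ Subgroup.centralizer (Q : Set G)
      = Subgroup.centralizer (Q : Set G) ⊓ Subgroup.centralizer (R : Set G) := by
  obtain ⟨-, hZR⟩ := isCentralizerLarge_of_isCentrallyLarge R hR.1
  have hRdec := minimalCL_inf_sup_centralizer R Q hR hQ
  apply le_antisymm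
  · rintro x ⟨⟨-, hxR⟩, hxC⟩
    refine ⟨hxC, ?_⟩
    have : x ∈ Subgroup.centralizer (((R ⊓ Q) ⊔ Subgroup.centralizer (R : Set G) : Subgroup G) :
        Set G) := by
      rw [centralizer_sup_eq]
      refine ⟨?_, ?_⟩
      · exact (Subgroup.centralizer_le (show ((R ⊓ Q : Subgroup G) : Set G) ⊆ (Q : Set G) from
          SetLike.coe_subset_coe.mpr inf_le_right)) hxC
      · exact (Subgroup.le_centralizer_iff.mp (le_refl (Subgroup.centralizer (R : Set G)))) hxR
    rw [hRdec] at this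
    exact this
  · rintro x ⟨hxQ, hxR⟩
    exact ⟨⟨(isCentralizerLarge_of_isCentrallyLarge Q hQ).2 hxQ, hZR hxR⟩, hxQ⟩

theorem minimalCL_card_eq (Q R : Subgroup G) (hQ : Cfsg.IsMinimalCentrallyLarge Q)
    (hR : Cfsg.IsMinimalCentrallyLarge R) :
    Nat.card ↥Q = Nat.card ↥R ∧
    Nat.card ↥(Subgroup.centralizer (Q : Set G)) = Nat.card ↥(Subgroup.centralizer (R : Set G)) := by
  obtain ⟨hQm, hZQ⟩ := isCentralizerLarge_of_isCentrallyLarge Q hQ.1
  obtain ⟨hRm, hZR⟩ := isCentralizerLarge_of_isCentrallyLarge R hR.1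
  have hQm' : Nat.card ↥Q * Nat.card ↥(Subgroup.centralizer (Q : Set G))
      = Cfsg.maxCentralizerProduct G := hQm
  have hRm' : Nat.card ↥R * Nat.card ↥(Subgroup.centralizer (R : Set G))
      = Cfsg.maxCentralizerProduct G := hRm
  -- product formula for Q = (Q ⊓ R) C(Q)
  have pf : ∀ (Q R : Subgroup G), Cfsg.IsMinimalCentrallyLarge Q → Cfsg.IsMinimalCentrallyLarge R →
      Nat.card ↥Q * Nat.card ↥(Subgroup.centralizer (Q : Set G) ⊓ Subgroup.centralizer (R : Set G))
        = Nat.card ↥(Q ⊓ R) * Nat.card ↥(Subgroup.centralizer (Q : Set G)) := by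
    intro Q R hQ hR
    have hdec := minimalCL_inf_sup_centralizer Q R hQ hR.1
    have hset := sup_eq_mul_of_le_centralizer (Q ⊓ R) (Subgroup.centralizer (Q : Set G))
      (Subgroup.centralizer_le (show ((Q ⊓ R : Subgroup G) : Set G) ⊆ (Q : Set G) from
        SetLike.coe_subset_coe.mpr inf_le_left))
    have h := card_mul_card_inf (Q ⊓ R) (Subgroup.centralizer (Q : Set G))
    rw [← hset, minimalCL_inf_centralizer Q R hQ.1 hR, hdec] at h
    exact h
  have h1 := pf Q R hQ hR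
  have h2 := pf R Q hR hQ
  rw [inf_comm (Subgroup.centralizer (R : Set G)), inf_comm R Q] at h2
  set q := Nat.card ↥Q
  set r := Nat.card ↥R
  set zq := Nat.card ↥(Subgroup.centralizer (Q : Set G))
  set zr := Nat.card ↥(Subgroup.centralizer (R : Set G))
  set w := Nat.card ↥(Subgroup.centralizer (Q : Set G) ⊓ Subgroup.centralizer (R : Set G))
  set x := Nat.card ↥(Q ⊓ R)
  have hwpos : 0 < w := Nat.card_pos
  have hqpos : 0 < q := Nat.card_pos
  have hrpos : 0 < r := Nat.card_pos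
  have hzqpos : 0 < zq := Nat.card_pos
  have hzrpos : 0 < zr := Nat.card_pos
  have h3 : q * zr = r * zq := by
    have : w * (q * zr) = w * (r * zq) := by
      calc w * (q * zr) = (q * w) * zr := by ring
        _ = (x * zq) * zr := by rw [h1]
        _ = (x * zr) * zq := by ring
        _ = (r * w) * zq := by rw [h2]
        _ = w * (r * zq) := by ring
    exact Nat.eq_of_mul_eq_mul_left hwpos this
  have h4 : q * zq = r * zr := by rw [hQm', hRm']
  have hqr : q = r := by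
    have h5 : (q * q) * (zq * zr) = (r * r) * (zq * zr) := by
      calc (q * q) * (zq * zr) = (q * zr) * (q * zq) := by ring
        _ = (r * zq) * (r * zr) := by rw [h3, h4]
        _ = (r * r) * (zq * zr) := by ring
    have h6 : q * q = r * r := Nat.eq_of_mul_eq_mul_right (Nat.mul_pos hzqpos hzrpos) h5
    exact Nat.mul_self_inj.mp h6
  refine ⟨hqr, ?_⟩
  rw [hqr] at h4
  exact Nat.eq_of_mul_eq_mul_left hrpos h4

/-- If some minimal centrally large subgroup is abelian, the minimal centrally large subgroups are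
exactly the abelian subgroups of largest order. -/
theorem minimalCL_iff_maxAbelian (Q : Subgroup G) (hQ : Cfsg.IsMinimalCentrallyLarge Q)
    (hQab : IsMulCommutative ↥Q) (X : Subgroup G) :
    Cfsg.IsMinimalCentrallyLarge X ↔ X ∈ Cfsg.maxAbelianSubgroups G := by
  obtain ⟨hQm, hZQ⟩ := isCentralizerLarge_of_isCentrallyLarge Q hQ.1
  have hQc : Q ≤ Subgroup.centralizer (Q : Set G) :=
    Subgroup.le_centralizer_iff_isMulCommutative.mpr hQab
  have hCQ : Subgroup.centralizer (Q : Set G) = Q := le_antisymm hZQ hQc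
  have hM : Nat.card ↥Q * Nat.card ↥Q = Cfsg.maxCentralizerProduct G := by
    have : Nat.card ↥Q * Nat.card ↥(Subgroup.centralizer (Q : Set G))
      = Cfsg.maxCentralizerProduct G := hQm
    rw [hCQ] at this
    exact this
  have hab_le : ∀ B : Subgroup G, IsMulCommutative ↥B → Nat.card ↥B ≤ Nat.card ↥Q := by
    intro B hB
    have hBc : B ≤ Subgroup.centralizer (B : Set G) :=
      Subgroup.le_centralizer_iff_isMulCommutative.mpr hB
    have h1 := measure_le_max B
    have h2 : Nat.card ↥B * Nat.card ↥B ≤ Nat.card ↥Q * Nat.card ↥Q := by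
      rw [hM]
      exact (Nat.mul_le_mul_left _ (Subgroup.card_le_of_le hBc)).trans h1
    exact Nat.mul_self_le_mul_self_iff.mp h2
  constructor
  · intro hX
    have hcomm : ⁅X, X⁆ = ⊥ := by
      rw [minimalCL_commutator_eq X Q hX hQ, Subgroup.commutator_eq_bot_iff_le_centralizer]
      exact hQc
    have hXab : IsMulCommutative ↥X :=
      Subgroup.le_centralizer_iff_isMulCommutative.mp
        (Subgroup.commutator_eq_bot_iff_le_centralizer.mp hcomm)
    refine ⟨hXab, ?_⟩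
    intro B hB
    rw [(minimalCL_card_eq X Q hX hQ).1]
    exact hab_le B hB
  · intro hX
    have hXc := centralizer_eq_of_mem_maxAbelian X hX
    have hcard : Nat.card ↥X = Nat.card ↥Q := le_antisymm (hab_le X hX.1) (hX.2 Q hQab)
    have hXm : Cfsg.IsCentralizerLarge X := by
      change Nat.card ↥X * Nat.card ↥(Subgroup.centralizer (X : Set G))
        = Cfsg.maxCentralizerProduct G
      rw [hXc, hcard]; exact hM
    have hXCL : Cfsg.IsCentrallyLarge X :=
      isCentrallyLarge_of_isCentralizerLarge X hXm (le_of_eq hXc)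
    refine ⟨hXCL, ?_⟩
    intro X' hX'le hX'CL
    obtain ⟨hX'm, hZX'⟩ := isCentralizerLarge_of_isCentrallyLarge X' hX'CL
    have hX'c : X' ≤ Subgroup.centralizer (X' : Set G) := by
      have h1 : X' ≤ Subgroup.centralizer (X : Set G) := hX'le.trans (le_of_eq hXc.symm)
      exact h1.trans (Subgroup.centralizer_le (SetLike.coe_subset_coe.mpr hX'le))
    have hCX' : Subgroup.centralizer (X' : Set G) = X' := le_antisymm hZX' hX'c
    have hX'm' : Nat.card ↥X' * Nat.card ↥(Subgroup.centralizer (X' : Set G))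
        = Cfsg.maxCentralizerProduct G := hX'm
    rw [hCX', ← hM, ← hcard] at hX'm'
    have : Nat.card ↥X' = Nat.card ↥X := Nat.mul_self_inj.mp hX'm'
    exact Subgroup.eq_of_le_of_card_ge hX'le (le_of_eq this.symm)

end

end Cfsg.Agent.Lib.Helper50
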