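import Mathlib
import Cfsg.Agent.Lib.Helper1.Tools
import Cfsg.Agent.Lib.Helper1.MinNormal
import Cfsg.Agent.Lib.Helper1.SZConjB
import Cfsg.Agent.Lib.Helper1.SZInternal
import Cfsg.Agent.Lib.Helper1.HallConj
import Cfsg.Agent.Lib.Helper55.Cores
import Cfsg.Agent.Lib.Helper63.PLength

/-!
Solvable groups in which `p`-subgroups of equal order are conjugate and all Sylow subgroups but
one are cyclic: subgroups of equal order are conjugate (helper50).
-/

set_option autoImplicit false

namespace Cfsg.Agent.Lib.Helper50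

open Pointwise

universe u

/-- A normal `p`-subgroup lies in every Sylow `p`-subgroup. -/
theorem so_normal_le_sylow {G : Type*} [Group G] {p : ℕ} (M : Subgroup G) [M.Normal]
    (hM : IsPGroup p M) (P : Sylow p G) : M ≤ P := by
  have h1 : IsPGroup p (M ⊔ P : Subgroup G) := hM.to_sup_of_normal_left P.isPGroup'
  have h2 := P.is_maximal' h1 le_sup_right
  exact le_sup_left.trans h2.le

/-- If the Sylow `p`-subgroups are cyclic, so is every `p`-subgroup. -/
theorem so_isCyclic_of_isPGroup {G : Type*} [Group G] {p : ℕ}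
    (hcyc : ∀ P : Sylow p G, IsCyclic P) (Q : Subgroup G) (hQ : IsPGroup p Q) : IsCyclic Q := by
  obtain ⟨P, hP⟩ := hQ.exists_le_sylow
  have := hcyc P
  exact isCyclic_of_injective (Subgroup.inclusion hP) (Subgroup.inclusion_injective hP)

/-- A nontrivial cyclic group of exponent `p` has order `p`. -/
theorem so_card_eq_prime {Q : Type*} [Group Q] [Finite Q] [IsCyclic Q] {p : ℕ} (hp : p.Prime)
    (hexp : ∀ x : Q, x ^ p = 1) (hne : Nontrivial Q) : Nat.card Q = p := by
  obtain ⟨g, hg⟩ := IsCyclic.exists_generator (α := Q)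
  have h1 : orderOf g = Nat.card Q := orderOf_eq_card_of_forall_mem_zpowers hg
  have h2 : orderOf g ∣ p := orderOf_dvd_of_pow_eq_one (hexp g)
  rcases (Nat.dvd_prime hp).1 h2 with h3 | h3
  · exfalso
    rw [h3] at h1
    have h4 : Subsingleton Q := (Nat.card_eq_one_iff_unique.1 h1.symm).1
    exact not_subsingleton Q h4
  · rw [← h1, h3]

/-- If the Sylow `p`-subgroups are cyclic, a normal subgroup of order `p` lies in every subgroup
of order divisible by `p`. -/
theorem so_le_of_dvd {G : Type*} [Group G] [Finite G] {p : ℕ} (hp : p.Prime)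
    (hcyc : ∀ P : Sylow p G, IsCyclic P) (M : Subgroup G) [M.Normal] (hM : Nat.card M = p)
    (U : Subgroup G) (hU : p ∣ Nat.card U) : M ≤ U := by
  classical
  have : Fact p.Prime := ⟨hp⟩
  obtain ⟨u, hu⟩ := exists_prime_orderOf_dvd_card' (G := ↥U) p hU
  have hu' : orderOf (u : G) = p := by rw [Subgroup.orderOf_coe, hu]
  have hZcard : Nat.card (Subgroup.zpowers (u : G)) = p := by rw [Nat.card_zpowers, hu']
  have hZU : Subgroup.zpowers (u : G) ≤ U := Subgroup.zpowers_le.2 u.2
  have hMp : IsPGroup p M := IsPGroup.of_card (n := 1) (by rw [hM, pow_one])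
  have hZp : IsPGroup p (Subgroup.zpowers (u : G)) :=
    IsPGroup.of_card (n := 1) (by rw [hZcard, pow_one])
  have hMZp : IsPGroup p (M ⊔ Subgroup.zpowers (u : G) : Subgroup G) :=
    hMp.to_sup_of_normal_left hZp
  set T : Subgroup G := M ⊔ Subgroup.zpowers (u : G) with hT
  have : IsCyclic ↥T := so_isCyclic_of_isPGroup hcyc _ hMZp
  have : Fintype ↥T := Fintype.ofFinite _
  have hle := IsCyclic.card_pow_eq_one_le (α := ↥T) (n := p) hp.pos
  have hMT : M ≤ T := le_sup_left
  have hZT : Subgroup.zpowers (u : G) ≤ T := le_sup_right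
  -- every solution of `x ^ p = 1` in `T` lies in `M`
  have key : ∀ x : ↥T, x ^ p = 1 → (x : G) ∈ M := by
    by_contra hcon
    push Not at hcon
    obtain ⟨x, hx, hxM⟩ := hcon
    have hsub : (Finset.univ.filter (fun a : ↥T => (a : G) ∈ M)) ⊂
        (Finset.univ.filter (fun a : ↥T => a ^ p = 1)) := by
      rw [Finset.ssubset_iff_of_subset]
      · refine ⟨x, ?_, ?_⟩
        · simp [hx]
        · simp [hxM]
      · intro a ha
        simp only [Finset.mem_filter, Finset.mem_univ, true_and] at ha ⊢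
        apply Subtype.ext
        have h1 : ((⟨(a : G), ha⟩ : ↥M)) ^ Nat.card M = 1 := pow_card_eq_one'
        rw [hM] at h1
        have h2 := congrArg Subtype.val h1
        simpa using h2
    have hcard : (Finset.univ.filter (fun a : ↥T => (a : G) ∈ M)).card = p := by
      rw [← Fintype.card_subtype, ← Nat.card_eq_fintype_card]
      have h1 : Nat.card {a : ↥T // (a : G) ∈ M} = Nat.card ↥(M.subgroupOf T) := rfl
      rw [h1, Cfsg.Agent.Lib.Helper1.card_subgroupOf_of_le hMT, hM]
    have h3 := Finset.card_lt_card hsub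
    omega
  have hmem : (u : G) ∈ M := by
    have h1 := key ⟨(u : G), hZT (Subgroup.mem_zpowers _)⟩ (by
      apply Subtype.ext
      have h2 : (u : G) ^ p = 1 := by rw [← hu']; exact pow_orderOf_eq_one _
      simpa using h2)
    exact h1
  have hZM : Subgroup.zpowers (u : G) ≤ M := Subgroup.zpowers_le.2 hmem
  have hEq : Subgroup.zpowers (u : G) = M :=
    Subgroup.eq_of_le_of_card_ge hZM (by rw [hM, hZcard])
  rw [← hEq]
  exact hZU

/-- Cyclic Sylow subgroups pass to quotients. -/
theorem so_sylow_cyclic_quot {G : Type*} [Group G] [Finite G] {p : ℕ} [Fact p.Prime]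
    (hcyc : ∀ P : Sylow p G, IsCyclic P) (M : Subgroup G) [M.Normal] :
    ∀ P : Sylow p (G ⧸ M), IsCyclic P := by
  intro P
  obtain ⟨Q, hQ⟩ := Sylow.mapSurjective_surjective (QuotientGroup.mk'_surjective M) p P
  have := hcyc Q
  have h1 : (P : Subgroup (G ⧸ M)) = (Q : Subgroup G).map (QuotientGroup.mk' M) := by
    rw [← hQ]
    rfl
  have h2 : IsCyclic ↥((Q : Subgroup G).map (QuotientGroup.mk' M)) :=
    isCyclic_of_surjective ((QuotientGroup.mk' M).subgroupMap (Q : Subgroup G))
      ((QuotientGroup.mk' M).subgroupMap_surjective (Q : Subgroup G))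
  rw [← h1] at h2
  exact h2

/-- Cyclic Sylow subgroups pass to subgroups. -/
theorem so_sylow_cyclic_subgroup {G : Type*} [Group G] {p : ℕ}
    (hcyc : ∀ P : Sylow p G, IsCyclic P) (L : Subgroup G) :
    ∀ P : Sylow p ↥L, IsCyclic P := by
  intro P
  have h1 : IsPGroup p ((P : Subgroup ↥L).map L.subtype) := P.isPGroup'.map L.subtype
  have := so_isCyclic_of_isPGroup hcyc _ h1
  exact isCyclic_of_injective (L.subtype.subgroupMap (P : Subgroup ↥L))
    (by
      intro a b hab
      have h2 := congrArg Subtype.val hab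
      apply Subtype.ext
      exact L.subtype_injective h2)

/-- In a solvable group whose Sylow `p`-subgroups are cyclic for `p ≠ r`, two subgroups of the
same order, not divisible by `r`, are conjugate. -/
theorem so_zgroup_aux (r : ℕ) (n : ℕ) : ∀ (X : Type u) [Group X] [Finite X] [Group.IsSolvable X],
    Nat.card X = n →
    (∀ p : ℕ, p.Prime → p ≠ r → ∀ P : Sylow p X, IsCyclic P) →
    ∀ U V : Subgroup X, Nat.card U = Nat.card V →
      (∀ p : ℕ, p.Prime → p ∣ Nat.card U → p ≠ r) →
      ∃ g : X, MulAut.conj g • U = V := by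
  induction n using Nat.strongRecOn with | ind n ih => ?_
  intro X _ _ _ hn hcyc U V hUV hr
  by_cases hnt : Nontrivial X
  swap
  · rw [not_nontrivial_iff_subsingleton] at hnt
    refine ⟨1, ?_⟩
    ext x
    have hx : x = 1 := Subsingleton.elim x 1
    rw [hx]
    simp
  obtain ⟨M, hMn, hMne, hMmin⟩ := Cfsg.Agent.Lib.Helper1.exists_minNormal X
  have := hMn
  obtain ⟨hMc, p, hp, hpow⟩ :=
    Cfsg.Agent.Lib.Helper1.minNormal_elementary M inferInstance hMne hMmin
  have : Fact p.Prime := ⟨hp⟩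
  have hMp : IsPGroup p M := by
    rintro ⟨x, hx⟩
    exact ⟨1, Subtype.ext (by simpa using hpow x hx)⟩
  have hlt : Nat.card (X ⧸ M) < n := by
    rw [← hn, Cfsg.Agent.Lib.Helper1.card_eq_card_quot_mul M]
    have h1 : 1 < Nat.card M := (Subgroup.one_lt_card_iff_ne_bot M).2 hMne
    have h2 : 0 < Nat.card (X ⧸ M) := Nat.card_pos
    nlinarith
  have hcycQ : ∀ q : ℕ, q.Prime → q ≠ r → ∀ P : Sylow q (X ⧸ M), IsCyclic P := by
    intro q hq hqr
    have : Fact q.Prime := ⟨hq⟩
    exact so_sylow_cyclic_quot (hcyc q hq hqr) M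
  have hcardmap : ∀ W : Subgroup X, Nat.card (W.map (QuotientGroup.mk' M))
      * Nat.card (M ⊓ W : Subgroup X) = Nat.card W :=
    fun W => Cfsg.Agent.Lib.Helper1.card_map_mk'_mul M W
  by_cases hpd : p ∣ Nat.card U
  · have hpr : p ≠ r := hr p hp hpd
    have : IsCyclic ↥M := so_isCyclic_of_isPGroup (hcyc p hp hpr) M hMp
    have hMcard : Nat.card M = p := so_card_eq_prime hp
      (fun x => Subtype.ext (by simpa using hpow x.1 x.2)) (M.nontrivial_iff_ne_bot.2 hMne)
    have hMU : M ≤ U := so_le_of_dvd hp (hcyc p hp hpr) M hMcard U hpd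
    have hMV : M ≤ V := so_le_of_dvd hp (hcyc p hp hpr) M hMcard V (hUV ▸ hpd)
    have hU' := hcardmap U
    have hV' := hcardmap V
    rw [inf_of_le_left hMU, hMcard] at hU'
    rw [inf_of_le_left hMV, hMcard] at hV'
    have hcardeq : Nat.card (U.map (QuotientGroup.mk' M))
        = Nat.card (V.map (QuotientGroup.mk' M)) := by
      have h5 : Nat.card (U.map (QuotientGroup.mk' M)) * p
          = Nat.card (V.map (QuotientGroup.mk' M)) * p := by rw [hU', hV', hUV]
      exact Nat.eq_of_mul_eq_mul_right hp.pos h5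
    have hr' : ∀ q : ℕ, q.Prime → q ∣ Nat.card (U.map (QuotientGroup.mk' M)) → q ≠ r := by
      intro q hq hqd
      exact hr q hq (hqd.trans (Dvd.intro _ hU'))
    obtain ⟨g', hg'⟩ := ih _ hlt (X ⧸ M) rfl hcycQ _ _ hcardeq hr'
    obtain ⟨g, hg⟩ := Cfsg.Agent.Lib.Helper1.exists_conj_sup_of_map M U V g' hg'
    refine ⟨g, ?_⟩
    have h1 : M ≤ MulAut.conj g • U :=
      calc M = MulAut.conj g • M := (Subgroup.Normal.conj_smul_eq_self g M).symm
        _ ≤ MulAut.conj g • U := Subgroup.pointwise_smul_le_pointwise_smul_iff.2 hMU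
    rw [sup_of_le_left h1, sup_of_le_left hMV] at hg
    exact hg
  · have hcop : ∀ W : Subgroup X, Nat.card W = Nat.card U →
        Nat.card (M ⊓ W : Subgroup X) = 1 := by
      intro W hW
      obtain ⟨k, hk⟩ := (IsPGroup.iff_card).1 (hMp.to_le (inf_le_left : M ⊓ W ≤ M))
      rcases Nat.eq_zero_or_pos k with h0 | h0
      · rw [hk, h0, pow_zero]
      · exfalso
        apply hpd
        rw [← hW]
        have h1 : p ∣ Nat.card (M ⊓ W : Subgroup X) := by
          rw [hk]
          exact dvd_pow_self p h0.ne'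
        exact h1.trans (Subgroup.card_dvd_of_le inf_le_right)
    have hU' := hcardmap U
    have hV' := hcardmap V
    rw [hcop U rfl, mul_one] at hU'
    rw [hcop V hUV.symm, mul_one] at hV'
    have hcardeq : Nat.card (U.map (QuotientGroup.mk' M))
        = Nat.card (V.map (QuotientGroup.mk' M)) := by rw [hU', hV', hUV]
    have hr' : ∀ q : ℕ, q.Prime → q ∣ Nat.card (U.map (QuotientGroup.mk' M)) → q ≠ r := by
      intro q hq hqd
      rw [hU'] at hqd
      exact hr q hq hqd
    obtain ⟨g', hg'⟩ := ih _ hlt (X ⧸ M) rfl hcycQ _ _ hcardeq hr'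
    obtain ⟨g, hg⟩ := Cfsg.Agent.Lib.Helper1.exists_conj_sup_of_map M U V g' hg'
    have hA₁ : MulAut.conj g • U ≤ M ⊔ V := by
      rw [sup_comm, ← hg]
      exact le_sup_left
    have hcardA : Nat.card (MulAut.conj g • U : Subgroup X) = Nat.card V := by
      rw [Cfsg.Agent.Lib.Helper1.card_conj_smul, hUV]
    have hcopVM : (Nat.card V).Coprime (Nat.card M) := by
      obtain ⟨k, hk⟩ := (IsPGroup.iff_card).1 hMp
      rw [hk, ← hUV]
      exact Nat.Coprime.pow_right k ((Nat.Prime.coprime_iff_not_dvd hp).2 hpd).symm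
    obtain ⟨m, hm, hmconj⟩ := Cfsg.Agent.Lib.Helper1.sz_conj_internal M V (MulAut.conj g • U)
      (by rw [Subgroup.normalizer_eq_top]; exact le_top) hcopVM (Or.inr inferInstance) hA₁ hcardA
    refine ⟨m * g, ?_⟩
    rw [map_mul, mul_smul]
    exact hmconj

/-- Lifting conjugacy from the quotient by a normal `p`-subgroup. -/
theorem so_lift {X : Type u} [Group X] [Finite X] [Group.IsSolvable X] {p : ℕ} (hp : p.Prime)
    (M : Subgroup X) [M.Normal] (hMp : IsPGroup p M) (U V : Subgroup X)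
    (hUV : Nat.card U = Nat.card V) (hcase : (M ≤ U ∧ M ≤ V) ∨ ¬ p ∣ Nat.card U)
    (hquot : Nat.card (U.map (QuotientGroup.mk' M)) = Nat.card (V.map (QuotientGroup.mk' M)) →
      ∃ g' : X ⧸ M, MulAut.conj g' • U.map (QuotientGroup.mk' M)
        = V.map (QuotientGroup.mk' M)) :
    ∃ g : X, MulAut.conj g • U = V := by
  have : Fact p.Prime := ⟨hp⟩
  have hcardmap : ∀ W : Subgroup X, Nat.card (W.map (QuotientGroup.mk' M))
      * Nat.card (M ⊓ W : Subgroup X) = Nat.card W :=
    fun W => Cfsg.Agent.Lib.Helper1.card_map_mk'_mul M W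
  rcases hcase with ⟨hMU, hMV⟩ | hpd
  · have hU' := hcardmap U
    have hV' := hcardmap V
    rw [inf_of_le_left hMU] at hU'
    rw [inf_of_le_left hMV] at hV'
    have hcardeq : Nat.card (U.map (QuotientGroup.mk' M))
        = Nat.card (V.map (QuotientGroup.mk' M)) := by
      have h5 : Nat.card (U.map (QuotientGroup.mk' M)) * Nat.card M
          = Nat.card (V.map (QuotientGroup.mk' M)) * Nat.card M := by rw [hU', hV', hUV]
      exact Nat.eq_of_mul_eq_mul_right Nat.card_pos h5
    obtain ⟨g', hg'⟩ := hquot hcardeq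
    obtain ⟨g, hg⟩ := Cfsg.Agent.Lib.Helper1.exists_conj_sup_of_map M U V g' hg'
    refine ⟨g, ?_⟩
    have h1 : M ≤ MulAut.conj g • U :=
      calc M = MulAut.conj g • M := (Subgroup.Normal.conj_smul_eq_self g M).symm
        _ ≤ MulAut.conj g • U := Subgroup.pointwise_smul_le_pointwise_smul_iff.2 hMU
    rw [sup_of_le_left h1, sup_of_le_left hMV] at hg
    exact hg
  · have hcop : ∀ W : Subgroup X, Nat.card W = Nat.card U →
        Nat.card (M ⊓ W : Subgroup X) = 1 := by
      intro W hW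
      obtain ⟨k, hk⟩ := (IsPGroup.iff_card).1 (hMp.to_le (inf_le_left : M ⊓ W ≤ M))
      rcases Nat.eq_zero_or_pos k with h0 | h0
      · rw [hk, h0, pow_zero]
      · exfalso
        apply hpd
        rw [← hW]
        have h1 : p ∣ Nat.card (M ⊓ W : Subgroup X) := by
          rw [hk]
          exact dvd_pow_self p h0.ne'
        exact h1.trans (Subgroup.card_dvd_of_le inf_le_right)
    have hU' := hcardmap U
    have hV' := hcardmap V
    rw [hcop U rfl, mul_one] at hU'
    rw [hcop V hUV.symm, mul_one] at hV'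
    have hcardeq : Nat.card (U.map (QuotientGroup.mk' M))
        = Nat.card (V.map (QuotientGroup.mk' M)) := by rw [hU', hV', hUV]
    obtain ⟨g', hg'⟩ := hquot hcardeq
    obtain ⟨g, hg⟩ := Cfsg.Agent.Lib.Helper1.exists_conj_sup_of_map M U V g' hg'
    have hA₁ : MulAut.conj g • U ≤ M ⊔ V := by
      rw [sup_comm, ← hg]
      exact le_sup_left
    have hcardA : Nat.card (MulAut.conj g • U : Subgroup X) = Nat.card V := by
      rw [Cfsg.Agent.Lib.Helper1.card_conj_smul, hUV]
    have hcopVM : (Nat.card V).Coprime (Nat.card M) := by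
      obtain ⟨k, hk⟩ := (IsPGroup.iff_card).1 hMp
      rw [hk, ← hUV]
      exact Nat.Coprime.pow_right k ((Nat.Prime.coprime_iff_not_dvd hp).2 hpd).symm
    obtain ⟨m, hm, hmconj⟩ := Cfsg.Agent.Lib.Helper1.sz_conj_internal M V (MulAut.conj g • U)
      (by rw [Subgroup.normalizer_eq_top]; exact le_top) hcopVM (Or.inr inferInstance) hA₁ hcardA
    refine ⟨m * g, ?_⟩
    rw [map_mul, mul_smul]
    exact hmconj

/-- Conjugacy of `p`-subgroups of equal order passes to quotients. -/
theorem so_hD_quot {G : Type*} [Group G] [Finite G]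
    (hD : ∀ p : ℕ, p.Prime → ∀ H K : Subgroup G, IsPGroup p H → IsPGroup p K →
      Nat.card H = Nat.card K → ∃ g : G, MulAut.conj g • H = K)
    (M : Subgroup G) [M.Normal] :
    ∀ p : ℕ, p.Prime → ∀ H K : Subgroup (G ⧸ M), IsPGroup p H → IsPGroup p K →
      Nat.card H = Nat.card K → ∃ g : G ⧸ M, MulAut.conj g • H = K := by
  intro q hq H K hH hK hHK
  have : Fact q.Prime := ⟨hq⟩
  have key : ∀ H : Subgroup (G ⧸ M), IsPGroup q H → ∃ P : Subgroup G, IsPGroup q P ∧
      P.map (QuotientGroup.mk' M) = H ∧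
      Nat.card P = q ^ (Nat.card H * Nat.card M).factorization q := by
    intro H hH
    set H' : Subgroup G := H.comap (QuotientGroup.mk' M) with hH'
    have hcardH' : Nat.card H' = Nat.card H * Nat.card M :=
      Cfsg.Agent.Lib.Helper1.card_comap_mk' M H
    obtain ⟨S⟩ : Nonempty (Sylow q ↥H') := inferInstance
    set P : Subgroup G := (S : Subgroup ↥H').map H'.subtype with hP
    have hPcard : Nat.card P = q ^ (Nat.card H * Nat.card M).factorization q := by
      rw [hP, Subgroup.card_map_of_injective H'.subtype_injective, S.card_eq_multiplicity,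
        hcardH']
    have hPp : IsPGroup q P := S.isPGroup'.map H'.subtype
    have hPH' : P ≤ H' := Subgroup.map_subtype_le _
    have hmaple : P.map (QuotientGroup.mk' M) ≤ H := by
      rw [Subgroup.map_le_iff_le_comap]
      exact hPH'
    refine ⟨P, hPp, ?_, hPcard⟩
    apply Subgroup.eq_of_le_of_card_ge hmaple
    obtain ⟨a, ha⟩ := (IsPGroup.iff_card).1 hH
    have h1 := Cfsg.Agent.Lib.Helper1.card_map_mk'_mul M P
    obtain ⟨b, hb⟩ := (IsPGroup.iff_card).1 (hPp.to_le (inf_le_right : M ⊓ P ≤ P))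
    have h2 : q ^ b ∣ Nat.card M := hb ▸ Subgroup.card_dvd_of_le inf_le_left
    have hMpos : Nat.card M ≠ 0 := Nat.card_pos.ne'
    have h3 : b ≤ (Nat.card M).factorization q :=
      (hq.pow_dvd_iff_le_factorization hMpos).1 h2
    have h4 : (Nat.card H * Nat.card M).factorization q
        = a + (Nat.card M).factorization q := by
      rw [ha, Nat.factorization_mul (pow_ne_zero a hq.ne_zero) hMpos, Finsupp.add_apply,
        Nat.factorization_pow, Finsupp.smul_apply, hq.factorization_self, smul_eq_mul, mul_one]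
    rw [hb, hPcard, h4] at h1
    rw [ha]
    have h5 : q ^ a * q ^ b ≤ Nat.card (P.map (QuotientGroup.mk' M)) * q ^ b := by
      rw [h1, ← pow_add]
      exact Nat.pow_le_pow_right hq.pos (by omega)
    exact Nat.le_of_mul_le_mul_right h5 (pow_pos hq.pos b)
  obtain ⟨P, hPp, hPmap, hPcard⟩ := key H hH
  obtain ⟨Q, hQp, hQmap, hQcard⟩ := key K hK
  obtain ⟨g, hg⟩ := hD q hq P Q hPp hQp (by rw [hPcard, hQcard, hHK])
  refine ⟨QuotientGroup.mk' M g, ?_⟩
  rw [← hPmap, ← Cfsg.Agent.Lib.Helper1.map_conj_smul, hg, hQmap]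

/-- A subgroup normalizes its intersection with a normal subgroup. -/
theorem so_le_normalizer_inf {G : Type*} [Group G] (W R : Subgroup G) [hR : R.Normal] :
    W ≤ Subgroup.normalizer ((W ⊓ R : Subgroup G) : Set G) := by
  intro v hv
  rw [Subgroup.mem_normalizer_iff]
  intro x
  constructor
  · intro hx
    exact ⟨W.mul_mem (W.mul_mem hv hx.1) (W.inv_mem hv), hR.conj_mem x hx.2 v⟩
  · intro hx
    have e : x = v⁻¹ * (v * x * v⁻¹) * v⁻¹⁻¹ := by group
    rw [e]
    exact ⟨W.mul_mem (W.mul_mem (W.inv_mem hv) hx.1) (W.inv_mem (W.inv_mem hv)),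
      hR.conj_mem _ hx.2 v⁻¹⟩

/-- Main theorem (induction on the order). -/
theorem so_main_aux (r : ℕ) (n : ℕ) : ∀ (G : Type u) [Group G] [Finite G] [Group.IsSolvable G],
    Nat.card G = n →
    (∀ p : ℕ, p.Prime → ∀ H K : Subgroup G, IsPGroup p H → IsPGroup p K →
      Nat.card H = Nat.card K → ∃ g : G, MulAut.conj g • H = K) →
    (∀ p : ℕ, p.Prime → p ≠ r → ∀ P : Sylow p G, IsCyclic P) →
    ∀ U V : Subgroup G, Nat.card U = Nat.card V → ∃ g : G, MulAut.conj g • U = V := by
  induction n using Nat.strongRecOn with | ind n ih => ?_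
  intro G _ _ _ hn hD hcyc U V hUV
  by_cases hnt : Nontrivial G
  swap
  · rw [not_nontrivial_iff_subsingleton] at hnt
    refine ⟨1, ?_⟩
    ext x
    have hx : x = 1 := Subsingleton.elim x 1
    rw [hx]
    simp
  by_cases hE : ∃ (M : Subgroup G) (p : ℕ), M.Normal ∧ p.Prime ∧ p ≠ r ∧ Nat.card M = p
  · obtain ⟨M, p, hMn, hp, hpr, hMcard⟩ := hE
    have := hMn
    have : Fact p.Prime := ⟨hp⟩
    have hMp : IsPGroup p M := IsPGroup.of_card (n := 1) (by rw [hMcard, pow_one])
    have hlt : Nat.card (G ⧸ M) < n := by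
      rw [← hn, Cfsg.Agent.Lib.Helper1.card_eq_card_quot_mul M, hMcard]
      have h1 : 1 < p := hp.one_lt
      have h2 : 0 < Nat.card (G ⧸ M) := Nat.card_pos
      nlinarith
    have hcycQ : ∀ q : ℕ, q.Prime → q ≠ r → ∀ P : Sylow q (G ⧸ M), IsCyclic P := by
      intro q hq hqr
      have : Fact q.Prime := ⟨hq⟩
      exact so_sylow_cyclic_quot (hcyc q hq hqr) M
    have hDQ := so_hD_quot hD M
    have hcase : (M ≤ U ∧ M ≤ V) ∨ ¬ p ∣ Nat.card U := by
      by_cases hpd : p ∣ Nat.card U
      · left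
        exact ⟨so_le_of_dvd hp (hcyc p hp hpr) M hMcard U hpd,
          so_le_of_dvd hp (hcyc p hp hpr) M hMcard V (hUV ▸ hpd)⟩
      · right
        exact hpd
    exact so_lift hp M hMp U V hUV hcase
      (fun hcardeq => ih _ hlt (G ⧸ M) rfl hDQ hcycQ _ _ hcardeq)
  · -- every nontrivial normal subgroup has order divisible by `r`
    have hK1 : ∀ N : Subgroup G, N.Normal → N ≠ ⊥ →
        ∃ q : ℕ, q.Prime ∧ q ∣ Nat.card N ∧ q = r := by
      intro N hNn hNne
      by_contra hcon
      push Not at hcon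
      have := hNn
      obtain ⟨Q, hQN, hQn, hQne, hQmin⟩ := Cfsg.Agent.Lib.Helper1.exists_minNormal_le N hNne
      have := hQn
      obtain ⟨hQc, p, hp, hpow⟩ :=
        Cfsg.Agent.Lib.Helper1.minNormal_elementary Q inferInstance hQne hQmin
      have : Fact p.Prime := ⟨hp⟩
      have hQp : IsPGroup p Q := by
        rintro ⟨x, hx⟩
        exact ⟨1, Subtype.ext (by simpa using hpow x hx)⟩
      have hpQ : p ∣ Nat.card Q := by
        obtain ⟨k, hk⟩ := (IsPGroup.iff_card).1 hQp
        rcases Nat.eq_zero_or_pos k with h0 | h0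
        · exfalso
          rw [h0, pow_zero] at hk
          exact hQne (Subgroup.card_eq_one.1 hk)
        · rw [hk]
          exact dvd_pow_self p h0.ne'
      have hpr : p ≠ r := hcon p hp (hpQ.trans (Subgroup.card_dvd_of_le hQN))
      have : IsCyclic ↥Q := so_isCyclic_of_isPGroup (hcyc p hp hpr) Q hQp
      have hQcard : Nat.card Q = p := so_card_eq_prime hp
        (fun x => Subtype.ext (by simpa using hpow x.1 x.2)) (Q.nontrivial_iff_ne_bot.2 hQne)
      exact hE ⟨Q, p, hQn, hp, hpr, hQcard⟩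
    have hrp : r.Prime := by
      obtain ⟨q, hq, -, hqr⟩ := hK1 ⊤ inferInstance top_ne_bot
      exact hqr ▸ hq
    have : Fact r.Prime := ⟨hrp⟩
    have hO : ∀ N : Subgroup G, N.Normal → (Nat.card N).Coprime r → N = ⊥ := by
      intro N hNn hcop
      by_contra hNne
      obtain ⟨q, hq, hqd, hqr⟩ := hK1 N hNn hNne
      subst hqr
      exact hq.one_lt.ne' (Nat.Coprime.eq_one_of_dvd hcop.symm hqd)
    have hcent := Cfsg.Agent.Lib.Helper55.centralizer_pCore_le (p := r) (X := G) hO
    set R₀ : Subgroup G := Cfsg.pCore r G with hR₀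
    have hR₀n : R₀.Normal := Cfsg.pCore_normal r G
    have hR₀p : IsPGroup r R₀ := Cfsg.Agent.Lib.Helper63.pCore_isPGroup' r G
    obtain ⟨b, hb⟩ := (IsPGroup.iff_card).1 hR₀p
    have hN1 : ∀ T : Subgroup G, IsPGroup r T → Nat.card T ≤ Nat.card R₀ → T ≤ R₀ := by
      intro T hT hle
      obtain ⟨j, hj⟩ := (IsPGroup.iff_card).1 hT
      have hjb : j ≤ b := by
        rw [hj, hb] at hle
        exact (Nat.pow_le_pow_iff_right hrp.one_lt).1 hle
      obtain ⟨T₀', hT₀'⟩ := Sylow.exists_subgroup_card_pow_prime (G := ↥R₀) r (n := j)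
        (by rw [hb]; exact pow_dvd_pow r hjb)
      have hT₀card : Nat.card (T₀'.map R₀.subtype) = r ^ j := by
        rw [Subgroup.card_map_of_injective R₀.subtype_injective, hT₀']
      have hT₀R : T₀'.map R₀.subtype ≤ R₀ := Subgroup.map_subtype_le _
      have hT₀p : IsPGroup r (T₀'.map R₀.subtype) := IsPGroup.of_card hT₀card
      obtain ⟨g, hg⟩ := hD r hrp (T₀'.map R₀.subtype) T hT₀p hT (by rw [hT₀card, hj])
      rw [← hg]
      calc MulAut.conj g • (T₀'.map R₀.subtype) ≤ MulAut.conj g • R₀ :=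
            Subgroup.pointwise_smul_le_pointwise_smul_iff.2 hT₀R
        _ = R₀ := Subgroup.Normal.conj_smul_eq_self g R₀
    have hN2 : ∀ m : ℕ, ∀ x : G, orderOf x = r ^ m → x ∈ R₀ := by
      intro m
      induction m with
      | zero =>
        intro x hx
        rw [pow_zero, orderOf_eq_one_iff] at hx
        rw [hx]
        exact R₀.one_mem
      | succ m ihm =>
        intro x hx
        by_contra hxR
        have hy : orderOf (x ^ r) = r ^ m := by
          rw [orderOf_pow' x hrp.ne_zero, hx,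
            Nat.gcd_eq_right (dvd_pow_self r (Nat.succ_ne_zero m)), pow_succ,
            Nat.mul_div_cancel _ hrp.pos]
        have hyR : x ^ r ∈ R₀ := ihm _ hy
        have hZp : IsPGroup r (Subgroup.zpowers x) :=
          IsPGroup.of_card (n := m + 1) (by rw [Nat.card_zpowers, hx])
        have hgt : Nat.card R₀ < Nat.card (Subgroup.zpowers x) := by
          by_contra hle
          push Not at hle
          exact hxR (hN1 _ hZp hle (Subgroup.mem_zpowers x))
        rw [Nat.card_zpowers, hx, hb] at hgt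
        have hbm : b < m + 1 := (Nat.pow_lt_pow_iff_right hrp.one_lt).1 hgt
        have hle2 : Subgroup.zpowers (x ^ r) ≤ R₀ := Subgroup.zpowers_le.2 hyR
        have hcard2 : Nat.card (Subgroup.zpowers (x ^ r)) = r ^ m := by
          rw [Nat.card_zpowers, hy]
        have hmb : m ≤ b := by
          have h5 := Subgroup.card_dvd_of_le hle2
          rw [hcard2, hb] at h5
          exact (Nat.pow_dvd_pow_iff_le_right hrp.one_lt).1 h5
        have hbm' : b = m := by omega
        have hEq : Subgroup.zpowers (x ^ r) = R₀ :=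
          Subgroup.eq_of_le_of_card_ge hle2 (by rw [hcard2, hb, hbm'])
        apply hxR
        apply hcent
        rw [Subgroup.mem_centralizer_iff]
        intro z hz
        have hz' : z ∈ Subgroup.zpowers (x ^ r) := by
          rw [hEq]
          exact hz
        obtain ⟨k, rfl⟩ := Subgroup.mem_zpowers_iff.1 hz'
        exact (((Commute.refl x).pow_left r).zpow_left k).eq
    have hN3 : ∀ T : Subgroup G, IsPGroup r T → T ≤ R₀ := by
      intro T hT x hx
      obtain ⟨k, hk⟩ := (IsPGroup.iff_orderOf).1 hT ⟨x, hx⟩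
      rw [Subgroup.orderOf_mk] at hk
      exact hN2 k x hk
    have hcardinf : ∀ W : Subgroup G,
        Nat.card (W ⊓ R₀ : Subgroup G) = r ^ (Nat.card W).factorization r := by
      intro W
      obtain ⟨S⟩ : Nonempty (Sylow r ↥W) := inferInstance
      have hS : (S : Subgroup ↥W).map W.subtype ≤ W ⊓ R₀ :=
        le_inf (Subgroup.map_subtype_le _) (hN3 _ (S.isPGroup'.map W.subtype))
      have h1 : IsPGroup r ((W ⊓ R₀).subgroupOf W) :=
        (hR₀p.to_le (inf_le_right : W ⊓ R₀ ≤ R₀)).comap_subtype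
      have h2 : (S : Subgroup ↥W) ≤ (W ⊓ R₀).subgroupOf W := by
        intro w hw
        rw [Subgroup.mem_subgroupOf]
        exact hS (Subgroup.mem_map_of_mem _ hw)
      have h3 := S.is_maximal' h1 h2
      rw [← Cfsg.Agent.Lib.Helper1.card_subgroupOf_of_le (inf_le_left : W ⊓ R₀ ≤ W), h3,
        S.card_eq_multiplicity]
    obtain ⟨g₁, hg₁⟩ := hD r hrp (U ⊓ R₀) (V ⊓ R₀) (hR₀p.to_le inf_le_right)
      (hR₀p.to_le inf_le_right) (by rw [hcardinf U, hcardinf V, hUV])
    have hU₁card : Nat.card (MulAut.conj g₁ • U : Subgroup G) = Nat.card V := by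
      rw [Cfsg.Agent.Lib.Helper1.card_conj_smul, hUV]
    have hU₁B : (MulAut.conj g₁ • U) ⊓ R₀ = V ⊓ R₀ := by
      rw [← hg₁, Subgroup.smul_inf, Subgroup.Normal.conj_smul_eq_self g₁ R₀]
    have hVL : V ≤ Subgroup.normalizer ((V ⊓ R₀ : Subgroup G) : Set G) :=
      so_le_normalizer_inf V R₀
    have hU₁L : MulAut.conj g₁ • U ≤ Subgroup.normalizer ((V ⊓ R₀ : Subgroup G) : Set G) := by
      rw [← hU₁B]
      exact so_le_normalizer_inf _ R₀
    have hBL : V ⊓ R₀ ≤ Subgroup.normalizer ((V ⊓ R₀ : Subgroup G) : Set G) :=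
      Subgroup.le_normalizer
    have hBU₁ : V ⊓ R₀ ≤ MulAut.conj g₁ • U := by
      rw [← hU₁B]
      exact inf_le_left
    -- pass to the normalizer of `B = V ⊓ R₀`
    obtain ⟨L, hLdef⟩ : ∃ L : Subgroup G,
        L = Subgroup.normalizer ((V ⊓ R₀ : Subgroup G) : Set G) := ⟨_, rfl⟩
    rw [← hLdef] at hVL hU₁L hBL
    have hBLn : ((V ⊓ R₀).subgroupOf L).Normal := by
      rw [hLdef]
      exact Subgroup.normal_in_normalizer
    have hBLU : (V ⊓ R₀).subgroupOf L ≤ (MulAut.conj g₁ • U).subgroupOf L := by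
      intro x hx
      rw [Subgroup.mem_subgroupOf] at hx ⊢
      exact hBU₁ hx
    have hBLV : (V ⊓ R₀).subgroupOf L ≤ V.subgroupOf L := by
      intro x hx
      rw [Subgroup.mem_subgroupOf] at hx ⊢
      exact hx.1
    have hcU := Cfsg.Agent.Lib.Helper1.card_map_mk'_mul ((V ⊓ R₀).subgroupOf L)
      ((MulAut.conj g₁ • U).subgroupOf L)
    have hcV := Cfsg.Agent.Lib.Helper1.card_map_mk'_mul ((V ⊓ R₀).subgroupOf L)
      (V.subgroupOf L)
    rw [inf_of_le_left hBLU, Cfsg.Agent.Lib.Helper1.card_subgroupOf_of_le hBL,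
      Cfsg.Agent.Lib.Helper1.card_subgroupOf_of_le hU₁L, hU₁card] at hcU
    rw [inf_of_le_left hBLV, Cfsg.Agent.Lib.Helper1.card_subgroupOf_of_le hBL,
      Cfsg.Agent.Lib.Helper1.card_subgroupOf_of_le hVL] at hcV
    have hcardeq : Nat.card (((MulAut.conj g₁ • U).subgroupOf L).map
          (QuotientGroup.mk' ((V ⊓ R₀).subgroupOf L)))
        = Nat.card ((V.subgroupOf L).map (QuotientGroup.mk' ((V ⊓ R₀).subgroupOf L))) := by
      have h5 : Nat.card (((MulAut.conj g₁ • U).subgroupOf L).map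
            (QuotientGroup.mk' ((V ⊓ R₀).subgroupOf L))) * Nat.card (V ⊓ R₀ : Subgroup G)
          = Nat.card ((V.subgroupOf L).map (QuotientGroup.mk' ((V ⊓ R₀).subgroupOf L)))
            * Nat.card (V ⊓ R₀ : Subgroup G) := by rw [hcU, hcV]
      exact Nat.eq_of_mul_eq_mul_right Nat.card_pos h5
    have hr' : ∀ q : ℕ, q.Prime → q ∣ Nat.card (((MulAut.conj g₁ • U).subgroupOf L).map
        (QuotientGroup.mk' ((V ⊓ R₀).subgroupOf L))) → q ≠ r := by
      intro q hq hqd hqr
      subst hqr
      have h2 : Nat.card (V ⊓ R₀ : Subgroup G) = q ^ (Nat.card V).factorization q := hcardinf V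
      have h3 : q ^ ((Nat.card V).factorization q + 1) ∣ Nat.card V := by
        have h4 : q ^ (Nat.card V).factorization q * q ∣ Nat.card (V ⊓ R₀ : Subgroup G)
            * Nat.card (((MulAut.conj g₁ • U).subgroupOf L).map
              (QuotientGroup.mk' ((V ⊓ R₀).subgroupOf L))) := by
          rw [h2]
          exact Nat.mul_dvd_mul_left _ hqd
        rw [mul_comm (Nat.card (V ⊓ R₀ : Subgroup G)), hcU] at h4
        rw [pow_succ]
        exact h4
      exact (Nat.pow_succ_factorization_not_dvd (Nat.card_pos.ne') hq) h3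
    have hcycL : ∀ q : ℕ, q.Prime → q ≠ r →
        ∀ P : Sylow q (↥L ⧸ (V ⊓ R₀).subgroupOf L), IsCyclic P := by
      intro q hq hqr
      have : Fact q.Prime := ⟨hq⟩
      exact so_sylow_cyclic_quot (so_sylow_cyclic_subgroup (hcyc q hq hqr) L) _
    obtain ⟨x', hx'⟩ := so_zgroup_aux r _ (↥L ⧸ (V ⊓ R₀).subgroupOf L) rfl hcycL _ _ hcardeq hr'
    obtain ⟨l, hl⟩ := Cfsg.Agent.Lib.Helper1.exists_conj_sup_of_map
      ((V ⊓ R₀).subgroupOf L) ((MulAut.conj g₁ • U).subgroupOf L) (V.subgroupOf L) x' hx'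
    have h1 : (V ⊓ R₀).subgroupOf L ≤ MulAut.conj l • (MulAut.conj g₁ • U).subgroupOf L :=
      calc (V ⊓ R₀).subgroupOf L = MulAut.conj l • (V ⊓ R₀).subgroupOf L :=
            (Subgroup.Normal.conj_smul_eq_self l _).symm
        _ ≤ _ := Subgroup.pointwise_smul_le_pointwise_smul_iff.2 hBLU
    rw [sup_of_le_left h1, sup_of_le_left hBLV] at hl
    have h2 := Cfsg.Agent.Lib.Helper1.conj_smul_of_subgroupOf hU₁L hVL l hl
    refine ⟨(l : G) * g₁, ?_⟩
    rw [map_mul, mul_smul]
    exact h2

/-- Main theorem. -/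
theorem so_main {G : Type u} [Group G] [Finite G] [Group.IsSolvable G] (r : ℕ)
    (hD : ∀ p : ℕ, p.Prime → ∀ H K : Subgroup G, IsPGroup p H → IsPGroup p K →
      Nat.card H = Nat.card K → ∃ g : G, MulAut.conj g • H = K)
    (hcyc : ∀ p : ℕ, p.Prime → p ≠ r → ∀ P : Sylow p G, IsCyclic P) :
    ∀ U V : Subgroup G, Nat.card U = Nat.card V → ∃ g : G, MulAut.conj g • U = V :=
  so_main_aux r _ G rfl hD hcyc

end Cfsg.Agent.Lib.Helper50
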