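import Mathlib
import Cfsg.Prelude.Def_CaseTheorems
import Cfsg.Agent.Lib.Helper1.Tools

set_option autoImplicit false

namespace Cfsg.Agent.Lib.Helper50

/-- Sectional rank bounds pass to subgroups. -/
theorem sr_subgroup {G : Type*} [Group G] {p k : ℕ} (h : Cfsg.SectionalPRankLE p k G)
    (T : Subgroup G) : Cfsg.SectionalPRankLE p k ↥T := by
  intro H N hN A hA hAexp
  let e : ↥H ≃* ↥(H.map T.subtype) := H.equivMapOfInjective T.subtype T.subtype_injective
  have hN' : (N.map e.toMonoidHom).Normal := Subgroup.Normal.map hN e.toMonoidHom e.surjective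
  obtain ⟨φ⟩ : Nonempty (↥H ⧸ N ≃* ↥(H.map T.subtype) ⧸ N.map e.toMonoidHom) :=
    ⟨QuotientGroup.congr N (N.map e.toMonoidHom) e rfl⟩
  have h1 := h (H.map T.subtype) (N.map e.toMonoidHom) (A.map φ.toMonoidHom) inferInstance ?_
  · have h2 : Nat.card ↥(A.map φ.toMonoidHom) = Nat.card ↥A :=
      Subgroup.card_map_of_injective (f := φ.toMonoidHom) φ.injective
    rw [h2] at h1
    exact h1
  · rintro _ ⟨a, ha, rfl⟩
    rw [← map_pow, hAexp a ha, map_one]

/-- A group all of whose squares are trivial is commutative. -/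
theorem sr_mul_comm {G : Type*} [Group G] (h : ∀ g : G, g ^ 2 = 1) (a b : G) : a * b = b * a := by
  have h1 : ∀ g : G, g⁻¹ = g := fun g => by
    have h2 := h g
    rw [pow_two] at h2
    exact inv_eq_of_mul_eq_one_left h2
  calc a * b = (a * b)⁻¹ := (h1 _).symm
    _ = b⁻¹ * a⁻¹ := mul_inv_rev a b
    _ = b * a := by rw [h1, h1]

/-- Intrinsic form of a sectional `2`-rank bound: index of a subgroup containing all squares. -/
theorem sr_relIndex_le {G : Type*} [Group G] {k : ℕ} (h : Cfsg.SectionalPRankLE 2 k G)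
    (H K : Subgroup G) (hsq : ∀ x ∈ H, x ^ 2 ∈ K) : K.relIndex H ≤ 2 ^ k := by
  have hN : (K.subgroupOf H).Normal := by
    constructor
    intro n hn g
    rw [Subgroup.mem_subgroupOf] at hn ⊢
    have h1 : ((g * n * g⁻¹ : ↥H) : G) = ((g : G) * n) ^ 2 * (n : G)⁻¹ * ((g : G)⁻¹) ^ 2 := by
      push_cast
      simp only [pow_two]
      group
    rw [h1]
    exact K.mul_mem (K.mul_mem (hsq _ (H.mul_mem g.2 n.2)) (K.inv_mem hn))
      (hsq _ (H.inv_mem g.2))
  have hexp : ∀ e : ↥H ⧸ K.subgroupOf H, e ^ 2 = 1 := by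
    intro e
    induction e using QuotientGroup.induction_on with
    | H x =>
      rw [← QuotientGroup.mk_pow, QuotientGroup.eq_one_iff, Subgroup.mem_subgroupOf]
      exact hsq x x.2
  have hcard := h H (K.subgroupOf H) ⊤
    (IsMulCommutative.of_setLike_mul_comm fun a _ b _ => sr_mul_comm hexp a b)
    (fun a _ => hexp a)
  rw [Subgroup.card_top, ← Subgroup.index_eq_card] at hcard
  exact hcard

/-- Converse: the intrinsic bound implies the sectional `2`-rank bound. -/
theorem sr_of_relIndex {G : Type*} [Group G] [Finite G] {k : ℕ}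
    (h : ∀ H K : Subgroup G, K ≤ H → (∀ x ∈ H, x ^ 2 ∈ K) → K.relIndex H ≤ 2 ^ k) :
    Cfsg.SectionalPRankLE 2 k G := by
  intro H N hN A hA hAexp
  have hle : N ≤ A.comap (QuotientGroup.mk' N) := by
    intro n hn
    rw [Subgroup.mem_comap]
    have h1 : QuotientGroup.mk' N n = 1 := (QuotientGroup.eq_one_iff n).mpr hn
    rw [h1]
    exact A.one_mem
  have h1 := h ((A.comap (QuotientGroup.mk' N)).map H.subtype) (N.map H.subtype)
    (Subgroup.map_mono hle) ?_
  · rw [Subgroup.relIndex_map_map_of_injective _ _ H.subtype_injective] at h1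
    have h2 : N.relIndex (A.comap (QuotientGroup.mk' N)) * (A.comap (QuotientGroup.mk' N)).index
        = N.index := Subgroup.relIndex_mul_index hle
    have h3 : (A.comap (QuotientGroup.mk' N)).index = A.index :=
      Subgroup.index_comap_of_surjective A (QuotientGroup.mk'_surjective N)
    have h4 : Nat.card A * A.index = Nat.card (↥H ⧸ N) := A.card_mul_index
    have h5 : N.index = Nat.card (↥H ⧸ N) := Subgroup.index_eq_card N
    have h6 : A.index ≠ 0 := Subgroup.index_ne_zero_of_finite
    rw [h3, h5, ← h4] at h2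
    have h7 : N.relIndex (A.comap (QuotientGroup.mk' N)) = Nat.card A :=
      Nat.eq_of_mul_eq_mul_right (Nat.pos_of_ne_zero h6) h2
    rw [← h7]
    exact h1
  · rintro _ ⟨y, hy, rfl⟩
    refine ⟨y ^ 2, ?_, by simp⟩
    have h2 : (QuotientGroup.mk' N y) ^ 2 = 1 := hAexp _ hy
    have h3 : QuotientGroup.mk' N (y ^ 2) = 1 := by rw [map_pow]; exact h2
    exact (QuotientGroup.eq_one_iff (y ^ 2)).mp h3

end Cfsg.Agent.Lib.Helper50
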