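import Mathlib
import Cfsg.Agent.S4400
import Cfsg.Agent.Lib.Helper50.SecRank

set_option autoImplicit false

namespace Cfsg.Agent.Lib.Helper50

variable {S : Type*} [Group S]

/-- `P` is non-abelian and its centre is `{1, z}` with `z ≠ 1`. -/
def SrGood (P : Subgroup S) (z : S) : Prop :=
  z ∈ P ∧ z ≠ 1 ∧ (∀ a ∈ P, a * z = z * a) ∧
    (∀ c ∈ P, (∀ a ∈ P, a * c = c * a) → c = 1 ∨ c = z) ∧ ∃ a ∈ P, ∃ b ∈ P, a * b ≠ b * a

theorem sr_card_center {X : Type*} [Group X] (ζ : X) (hζ1 : ζ ≠ 1) (hζc : ∀ a : X, a * ζ = ζ * a)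
    (hu : ∀ c : X, (∀ a : X, a * c = c * a) → c = 1 ∨ c = ζ) :
    Nat.card (Subgroup.center X) = 2 := by
  have hζ : ζ ∈ Subgroup.center X := Subgroup.mem_center_iff.mpr hζc
  rw [Nat.card_eq_two_iff' (1 : Subgroup.center X)]
  refine ⟨⟨ζ, hζ⟩, ?_, ?_⟩
  · intro h
    exact hζ1 (congrArg Subtype.val h)
  · intro y hy
    have hyc : ∀ a : X, a * (y : X) = y * a := Subgroup.mem_center_iff.mp y.2
    rcases hu y hyc with h | h
    · exact absurd (Subtype.ext h) hy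
    · exact Subtype.ext h

theorem sr_good_of (P : Subgroup S) (hP : ¬ IsMulCommutative ↥P)
    (hZP : Nat.card ↥(Subgroup.center ↥P) = 2) : ∃ z, SrGood P z := by
  obtain ⟨ζ, hζ1, hζu⟩ := (Nat.card_eq_two_iff' (1 : Subgroup.center ↥P)).mp hZP
  refine ⟨((ζ : ↥P) : S), (ζ : ↥P).2, ?_, ?_, ?_, ?_⟩
  · intro h
    apply hζ1
    exact Subtype.ext (Subtype.ext h)
  · intro a ha
    have h1 := Subgroup.mem_center_iff.mp ζ.2 ⟨a, ha⟩
    exact congrArg Subtype.val h1
  · intro c hc hcc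
    by_cases h1 : c = 1
    · exact Or.inl h1
    · right
      have hcZ : (⟨c, hc⟩ : ↥P) ∈ Subgroup.center ↥P := by
        rw [Subgroup.mem_center_iff]
        intro g
        exact Subtype.ext (hcc g g.2)
      have h2 := hζu ⟨⟨c, hc⟩, hcZ⟩ (by
        intro h
        apply h1
        exact congrArg (fun x : Subgroup.center ↥P => ((x : ↥P) : S)) h)
      exact congrArg (fun x : Subgroup.center ↥P => ((x : ↥P) : S)) h2
  · by_contra hcon
    push Not at hcon
    exact hP (IsMulCommutative.of_setLike_mul_comm fun a ha b hb => hcon a ha b hb)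

theorem sr_good_sq {P : Subgroup S} {z : S} (h : SrGood P z) : z * z = 1 := by
  obtain ⟨hz, hz1, hzc, hzu, -⟩ := h
  rcases hzu (z * z) (P.mul_mem hz hz) (fun a ha => by
    calc a * (z * z) = (a * z) * z := by group
      _ = (z * a) * z := by rw [hzc a ha]
      _ = z * (a * z) := by group
      _ = z * (z * a) := by rw [hzc a ha]
      _ = z * z * a := by group) with h1 | h1
  · exact h1
  · exfalso
    apply hz1
    calc z = z⁻¹ * (z * z) := by group
      _ = 1 := by rw [h1]; group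

theorem sr_mem_conj (s : S) (P : Subgroup S) (y : S) :
    y ∈ P.map (MulAut.conj s).toMonoidHom ↔ s⁻¹ * y * s ∈ P := by
  constructor
  · rintro ⟨x, hx, rfl⟩
    have h1 : s⁻¹ * ((MulAut.conj s).toMonoidHom x) * s = x := by
      simp only [MulEquiv.coe_toMonoidHom, MulAut.conj_apply]
      group
    rw [h1]
    exact hx
  · intro h
    refine ⟨s⁻¹ * y * s, h, ?_⟩
    simp only [MulEquiv.coe_toMonoidHom, MulAut.conj_apply]
    group

theorem sr_good_conj (s : S) {P : Subgroup S} {z : S} (h : SrGood P z) :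
    SrGood (P.map (MulAut.conj s).toMonoidHom) (s * z * s⁻¹) := by
  obtain ⟨hz, hz1, hzc, hzu, a, ha, b, hb, hab⟩ := h
  refine ⟨?_, ?_, ?_, ?_, ?_⟩
  · rw [sr_mem_conj]
    have h1 : s⁻¹ * (s * z * s⁻¹) * s = z := by group
    rw [h1]
    exact hz
  · intro h1
    apply hz1
    calc z = s⁻¹ * (s * z * s⁻¹) * s := by group
      _ = 1 := by rw [h1]; group
  · intro x hx
    rw [sr_mem_conj] at hx
    calc x * (s * z * s⁻¹) = s * ((s⁻¹ * x * s) * z) * s⁻¹ := by group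
      _ = s * (z * (s⁻¹ * x * s)) * s⁻¹ := by rw [hzc _ hx]
      _ = s * z * s⁻¹ * x := by group
  · intro c hc hcc
    rw [sr_mem_conj] at hc
    have h1 : ∀ a₀ ∈ P, a₀ * (s⁻¹ * c * s) = (s⁻¹ * c * s) * a₀ := by
      intro a₀ ha₀
      have h2 : s * a₀ * s⁻¹ ∈ P.map (MulAut.conj s).toMonoidHom := by
        rw [sr_mem_conj]
        have h3 : s⁻¹ * (s * a₀ * s⁻¹) * s = a₀ := by group
        rw [h3]
        exact ha₀
      have h4 := hcc _ h2
      calc a₀ * (s⁻¹ * c * s) = s⁻¹ * ((s * a₀ * s⁻¹) * c) * s := by group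
        _ = s⁻¹ * (c * (s * a₀ * s⁻¹)) * s := by rw [h4]
        _ = (s⁻¹ * c * s) * a₀ := by group
    rcases hzu _ hc h1 with h5 | h5
    · left
      calc c = s * (s⁻¹ * c * s) * s⁻¹ := by group
        _ = 1 := by rw [h5]; group
    · right
      calc c = s * (s⁻¹ * c * s) * s⁻¹ := by group
        _ = s * z * s⁻¹ := by rw [h5]
  · refine ⟨s * a * s⁻¹, ?_, s * b * s⁻¹, ?_, ?_⟩
    · rw [sr_mem_conj]
      have h3 : s⁻¹ * (s * a * s⁻¹) * s = a := by group
      rw [h3]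
      exact ha
    · rw [sr_mem_conj]
      have h3 : s⁻¹ * (s * b * s⁻¹) * s = b := by group
      rw [h3]
      exact hb
    · intro h1
      apply hab
      calc a * b = s⁻¹ * ((s * a * s⁻¹) * (s * b * s⁻¹)) * s := by group
        _ = s⁻¹ * ((s * b * s⁻¹) * (s * a * s⁻¹)) * s := by rw [h1]
        _ = b * a := by group

/-- Elements of the join of two elementwise commuting subgroups are products. -/
theorem sr_mem_sup_comm (A B : Subgroup S) (hc : ∀ a ∈ A, ∀ b ∈ B, a * b = b * a) (x : S)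
    (hx : x ∈ A ⊔ B) : ∃ a ∈ A, ∃ b ∈ B, x = a * b := by
  rw [Subgroup.sup_eq_closure] at hx
  induction hx using Subgroup.closure_induction with
  | mem x hx =>
    rcases hx with hx | hx
    · exact ⟨x, hx, 1, B.one_mem, (mul_one x).symm⟩
    · exact ⟨1, A.one_mem, x, hx, (one_mul x).symm⟩
  | one => exact ⟨1, A.one_mem, 1, B.one_mem, (mul_one 1).symm⟩
  | mul x y _ _ hx hy =>
    obtain ⟨a, ha, b, hb, rfl⟩ := hx
    obtain ⟨a', ha', b', hb', rfl⟩ := hy
    refine ⟨a * a', A.mul_mem ha ha', b * b', B.mul_mem hb hb', ?_⟩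
    calc a * b * (a' * b') = a * (b * a') * b' := by group
      _ = a * (a' * b) * b' := by rw [hc a' ha' b hb]
      _ = a * a' * (b * b') := by group
  | inv x _ hx =>
    obtain ⟨a, ha, b, hb, rfl⟩ := hx
    refine ⟨a⁻¹, A.inv_mem ha, b⁻¹, B.inv_mem hb, ?_⟩
    rw [mul_inv_rev]
    exact (hc a⁻¹ (A.inv_mem ha) b⁻¹ (B.inv_mem hb)).symm

/-- Order of the join of two commuting subgroups with trivial intersection. -/
theorem sr_prod_card (A B : Subgroup S) (hc : ∀ a ∈ A, ∀ b ∈ B, a * b = b * a)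
    (hi : A ⊓ B = ⊥) : Nat.card ↥(A ⊔ B) = Nat.card A * Nat.card B := by
  rw [← Nat.card_prod]
  symm
  apply Nat.card_congr
  refine Equiv.ofBijective (fun ab : ↥A × ↥B =>
    (⟨(ab.1 : S) * (ab.2 : S), Subgroup.mul_mem_sup ab.1.2 ab.2.2⟩ : ↥(A ⊔ B))) ⟨?_, ?_⟩
  · rintro ⟨a, b⟩ ⟨a', b'⟩ h
    have h1 : (a : S) * (b : S) = (a' : S) * (b' : S) := congrArg Subtype.val h
    have h2 : (a' : S)⁻¹ * (a : S) = (b' : S) * (b : S)⁻¹ := by
      calc (a' : S)⁻¹ * (a : S) = (a' : S)⁻¹ * ((a : S) * (b : S)) * (b : S)⁻¹ := by group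
        _ = (a' : S)⁻¹ * ((a' : S) * (b' : S)) * (b : S)⁻¹ := by rw [h1]
        _ = (b' : S) * (b : S)⁻¹ := by group
    have h3 : (a' : S)⁻¹ * (a : S) ∈ A ⊓ B :=
      ⟨A.mul_mem (A.inv_mem a'.2) a.2, by rw [h2]; exact B.mul_mem b'.2 (B.inv_mem b.2)⟩
    rw [hi, Subgroup.mem_bot] at h3
    have h4 : (a : S) = (a' : S) := (inv_mul_eq_one.mp h3).symm
    have h5 : (b : S) = (b' : S) := by
      rw [h4] at h1
      exact mul_left_cancel h1
    exact Prod.ext (Subtype.ext h4) (Subtype.ext h5)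
  · rintro ⟨x, hx⟩
    obtain ⟨a, ha, b, hb, rfl⟩ := sr_mem_sup_comm A B hc x hx
    exact ⟨(⟨a, ha⟩, ⟨b, hb⟩), rfl⟩

/-- Relative form of S4400: two non-abelian subgroups with centres of order two, different,
both normalized by a subgroup `T` containing them. -/
theorem sr_rel [Finite S] (h2 : IsPGroup 2 S) (hr : Cfsg.SectionalPRankLE 2 4 S)
    (T P Q : Subgroup S) (hPT : P ≤ T) (hQT : Q ≤ T)
    (hPn : ∀ t ∈ T, ∀ x ∈ P, t * x * t⁻¹ ∈ P) (hQn : ∀ t ∈ T, ∀ x ∈ Q, t * x * t⁻¹ ∈ Q)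
    (zP zQ : S) (hP : SrGood P zP) (hQ : SrGood Q zQ) (hne : zP ≠ zQ) :
    (∀ a ∈ P, ∀ b ∈ Q, a * b = b * a) ∧ P ⊓ Q = ⊥ ∧
      ∀ c ∈ T, (∀ a ∈ P, a * c = c * a) → (∀ b ∈ Q, b * c = c * b) →
        c = 1 ∨ c = zP ∨ c = zQ ∨ c = zP * zQ := by
  obtain ⟨hzP, hzP1, hzPc, hzPu, aP, haP, bP, hbP, habP⟩ := hP
  obtain ⟨hzQ, hzQ1, hzQc, hzQu, aQ, haQ, bQ, hbQ, habQ⟩ := hQ
  have nP : (P.subgroupOf T).Normal := by
    constructor
    intro n hn g
    rw [Subgroup.mem_subgroupOf] at hn ⊢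
    exact hPn g g.2 n hn
  have nQ : (Q.subgroupOf T).Normal := by
    constructor
    intro n hn g
    rw [Subgroup.mem_subgroupOf] at hn ⊢
    exact hQn g g.2 n hn
  have gen : ∀ (R : Subgroup S) (hRT : R ≤ T) (zR : S) (hzR : zR ∈ R) (_ : zR ≠ 1)
      (_ : ∀ a ∈ R, a * zR = zR * a)
      (_ : ∀ c ∈ R, (∀ a ∈ R, a * c = c * a) → c = 1 ∨ c = zR) (a b : S) (ha : a ∈ R)
      (hb : b ∈ R) (_ : a * b ≠ b * a),
      ¬ IsMulCommutative ↥(R.subgroupOf T) ∧
        Nat.card ↥(Subgroup.center ↥(R.subgroupOf T)) = 2 := by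
    intro R hRT zR hzR hzR1 hzRc hzRu a b ha hb hab
    constructor
    · intro hc
      have h1 := (isMulCommutative_iff.mp hc) ⟨⟨a, hRT ha⟩, ha⟩ ⟨⟨b, hRT hb⟩, hb⟩
      exact hab (congrArg (fun x : ↥(R.subgroupOf T) => ((x : ↥T) : S)) h1)
    · apply sr_card_center (⟨⟨zR, hRT hzR⟩, hzR⟩ : ↥(R.subgroupOf T))
      · intro h
        exact hzR1 (congrArg (fun x : ↥(R.subgroupOf T) => ((x : ↥T) : S)) h)
      · intro x
        apply Subtype.ext
        apply Subtype.ext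
        exact hzRc _ (Subgroup.mem_subgroupOf.mp x.2)
      · intro c hcc
        have hcR : ((c : ↥T) : S) ∈ R := Subgroup.mem_subgroupOf.mp c.2
        rcases hzRu _ hcR (fun a ha =>
          congrArg (fun x : ↥(R.subgroupOf T) => ((x : ↥T) : S)) (hcc ⟨⟨a, hRT ha⟩, ha⟩))
          with h | h
        · left
          exact Subtype.ext (Subtype.ext h)
        · right
          exact Subtype.ext (Subtype.ext h)
  obtain ⟨cP, zcP⟩ := gen P hPT zP hzP hzP1 hzPc hzPu aP bP haP hbP habP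
  obtain ⟨cQ, zcQ⟩ := gen Q hQT zQ hzQ hzQ1 hzQc hzQu aQ bQ haQ hbQ habQ
  have hne' : (Subgroup.center ↥(P.subgroupOf T)).map (P.subgroupOf T).subtype ≠
      (Subgroup.center ↥(Q.subgroupOf T)).map (Q.subgroupOf T).subtype := by
    intro heq
    have h1 : (⟨zP, hPT hzP⟩ : ↥T) ∈
        (Subgroup.center ↥(P.subgroupOf T)).map (P.subgroupOf T).subtype := by
      refine ⟨⟨⟨zP, hPT hzP⟩, hzP⟩, ?_, rfl⟩
      rw [SetLike.mem_coe, Subgroup.mem_center_iff]
      intro x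
      apply Subtype.ext
      apply Subtype.ext
      exact hzPc _ (Subgroup.mem_subgroupOf.mp x.2)
    rw [heq] at h1
    obtain ⟨y, hy, hy'⟩ := h1
    rw [SetLike.mem_coe, Subgroup.mem_center_iff] at hy
    have hyQ : ((y : ↥T) : S) ∈ Q := Subgroup.mem_subgroupOf.mp y.2
    have hyz : ((y : ↥T) : S) = zP := congrArg Subtype.val hy'
    rw [hyz] at hyQ
    rcases hzQu zP hyQ (fun a ha => by
      have h3 := hy ⟨⟨a, hQT ha⟩, ha⟩
      have h4 := congrArg (fun x : ↥(Q.subgroupOf T) => ((x : ↥T) : S)) h3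
      simp only [Subgroup.coe_mul] at h4
      rw [hyz] at h4
      exact h4) with h | h
    · exact hzP1 h
    · exact hne h
  have hp2 : Fact (Nat.Prime 2) := ⟨Nat.prime_two⟩
  obtain ⟨r1, r2, r3⟩ := Cfsg.Agent.S4400.result (h2.to_subgroup T) (sr_subgroup hr T)
    (P.subgroupOf T) (Q.subgroupOf T) cP cQ zcP zcQ hne'
  have hcomm : ∀ a ∈ P, ∀ b ∈ Q, a * b = b * a := by
    intro a ha b hb
    have h1 := Subgroup.commutator_eq_bot_iff_le_centralizer.mp r1
    have h3 : (⟨a, hPT ha⟩ : ↥T) ∈ Subgroup.centralizer ((Q.subgroupOf T : Subgroup ↥T) : Set ↥T) :=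
      h1 (show (⟨a, hPT ha⟩ : ↥T) ∈ P.subgroupOf T from ha)
    have h4 := Subgroup.mem_centralizer_iff.mp h3 ⟨b, hQT hb⟩
      (show (⟨b, hQT hb⟩ : ↥T) ∈ Q.subgroupOf T from hb)
    exact (congrArg Subtype.val h4).symm
  have hinf : P ⊓ Q = ⊥ := by
    rw [eq_bot_iff]
    intro x hx
    have h1 : (⟨x, hPT hx.1⟩ : ↥T) ∈ P.subgroupOf T ⊓ Q.subgroupOf T := ⟨hx.1, hx.2⟩
    rw [r2, Subgroup.mem_bot] at h1
    rw [Subgroup.mem_bot]
    exact congrArg Subtype.val h1
  refine ⟨hcomm, hinf, ?_⟩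
  intro c hcT hcP hcQ
  have hcc : (⟨c, hcT⟩ : ↥T) ∈ Subgroup.centralizer
      ((P.subgroupOf T ⊔ Q.subgroupOf T : Subgroup ↥T) : Set ↥T) := by
    have hle : P.subgroupOf T ⊔ Q.subgroupOf T ≤
        Subgroup.centralizer ({(⟨c, hcT⟩ : ↥T)} : Set ↥T) := by
      refine sup_le ?_ ?_
      · intro x hx
        rw [Subgroup.mem_centralizer_iff]
        intro y hy
        rw [Set.mem_singleton_iff] at hy
        subst hy
        apply Subtype.ext
        exact (hcP _ (Subgroup.mem_subgroupOf.mp hx)).symm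
      · intro x hx
        rw [Subgroup.mem_centralizer_iff]
        intro y hy
        rw [Set.mem_singleton_iff] at hy
        subst hy
        apply Subtype.ext
        exact (hcQ _ (Subgroup.mem_subgroupOf.mp hx)).symm
    rw [Subgroup.mem_centralizer_iff]
    intro g hg
    have h5 := Subgroup.mem_centralizer_iff.mp (hle hg) ⟨c, hcT⟩ rfl
    exact h5.symm
  have hmem := r3 hcc
  obtain ⟨a, ha, b, hb, hab⟩ := Subgroup.mem_sup_of_normal_right.mp hmem
  have haP' : ((a : ↥T) : S) ∈ P := Subgroup.mem_subgroupOf.mp ha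
  have hbQ' : ((b : ↥T) : S) ∈ Q := Subgroup.mem_subgroupOf.mp hb
  have hab' : (a : S) * (b : S) = c := congrArg Subtype.val hab
  have ha_c : ∀ x ∈ P, x * (a : S) = (a : S) * x := by
    intro x hx
    have e1 : (a : S) = c * (b : S)⁻¹ := by rw [← hab']; group
    have e2 : x * (b : S)⁻¹ = (b : S)⁻¹ * x := hcomm x hx _ (Q.inv_mem hbQ')
    calc x * (a : S) = x * c * (b : S)⁻¹ := by rw [e1]; group
      _ = c * (x * (b : S)⁻¹) := by rw [hcP x hx]; group
      _ = c * ((b : S)⁻¹ * x) := by rw [e2]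
      _ = (a : S) * x := by rw [e1]; group
  have hb_c : ∀ y ∈ Q, y * (b : S) = (b : S) * y := by
    intro y hy
    have e1 : (b : S) = (a : S)⁻¹ * c := by rw [← hab']; group
    have e2 : (a : S)⁻¹ * y = y * (a : S)⁻¹ := hcomm _ (P.inv_mem haP') y hy
    calc y * (b : S) = (y * (a : S)⁻¹) * c := by rw [e1]; group
      _ = (a : S)⁻¹ * (y * c) := by rw [← e2]; group
      _ = (a : S)⁻¹ * (c * y) := by rw [hcQ y hy]
      _ = (b : S) * y := by rw [e1]; group
  rcases hzPu _ haP' ha_c with h1 | h1 <;> rcases hzQu _ hbQ' hb_c with h2' | h2'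
  · left; rw [← hab', h1, h2', one_mul]
  · right; right; left; rw [← hab', h1, h2', one_mul]
  · right; left; rw [← hab', h1, h2', mul_one]
  · right; right; right; rw [← hab', h1, h2']

end Cfsg.Agent.Lib.Helper50
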