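import Mathlib
import Cfsg.Agent.Lib.Helper50.SecRank2

set_option autoImplicit false
set_option maxHeartbeats 1600000

namespace Cfsg.Agent.Lib.Helper50

theorem sr_main {S : Type*} [Group S] [Finite S] (h2 : IsPGroup 2 S)
    (hr : Cfsg.SectionalPRankLE 2 4 S) (P S₀ : Subgroup S) (z : S) (hP : SrGood P z)
    (hS₀ : ∀ g, g ∈ S₀ ↔ g * z = z * g)
    (hPn : ∀ s ∈ S₀, ∀ x ∈ P, s * x * s⁻¹ ∈ P) (hne : S₀ ≠ ⊤) :
    (∀ H K : Subgroup S, K ≤ H → H ≤ P → (∀ x ∈ H, x ^ 2 ∈ K) → K.relIndex H ≤ 2 ^ 2) ∧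
      S₀.index = 2 := by
  classical
  have hp2 : Fact (Nat.Prime 2) := ⟨Nat.prime_two⟩
  obtain ⟨hzP, hz1, hzc, hzu, aP, haP, bP, hbP, habP⟩ := id hP
  have hzz : z * z = 1 := sr_good_sq hP
  have hzinv : z⁻¹ = z := inv_eq_of_mul_eq_one_left hzz
  have hzS₀ : z ∈ S₀ := (hS₀ z).mpr rfl
  have hPS₀ : P ≤ S₀ := fun a ha => (hS₀ a).mpr (hzc a ha)
  have hnil : Group.IsNilpotent S := h2.isNilpotent
  have hlt : S₀ < Subgroup.normalizer (S₀ : Set S) :=
    Group.normalizerCondition_of_isNilpotent S₀ (lt_top_iff_ne_top.mpr hne)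
  obtain ⟨s₀, hs₀N, hs₀⟩ := SetLike.exists_of_lt hlt
  obtain ⟨s, hsN, hs, hs2⟩ :
      ∃ s ∈ Subgroup.normalizer (S₀ : Set S), s ∉ S₀ ∧ s * s ∈ S₀ := by
    have hex : ∃ j : ℕ, s₀ ^ (2 ^ j) ∈ S₀ := by
      obtain ⟨k, hk⟩ := h2 s₀
      exact ⟨k, by rw [hk]; exact one_mem _⟩
    have hj0 : Nat.find hex ≠ 0 := by
      intro h0
      have h1 := Nat.find_spec hex
      rw [h0] at h1
      simp only [pow_zero, pow_one] at h1
      exact hs₀ h1
    obtain ⟨j, hj⟩ := Nat.exists_eq_succ_of_ne_zero hj0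
    refine ⟨s₀ ^ (2 ^ j), pow_mem hs₀N _, Nat.find_min hex (by omega), ?_⟩
    have h1 := Nat.find_spec hex
    rw [hj, pow_succ, pow_mul] at h1
    rw [← pow_two]
    exact h1
  have hsc : ∀ t ∈ S₀, s * t * s⁻¹ ∈ S₀ :=
    fun t ht => (Subgroup.mem_normalizer_iff.mp hsN t).mp ht
  have hsc' : ∀ t ∈ S₀, s⁻¹ * t * s ∈ S₀ :=
    fun t ht => (Subgroup.mem_normalizer_iff''.mp hsN t).mp ht
  obtain ⟨z', hz'def⟩ : ∃ z', z' = s * z * s⁻¹ := ⟨_, rfl⟩
  obtain ⟨Q, hQdef⟩ : ∃ Q, Q = P.map (MulAut.conj s).toMonoidHom := ⟨_, rfl⟩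
  have hQ : SrGood Q z' := by rw [hQdef, hz'def]; exact sr_good_conj s hP
  have hmemQ : ∀ y, y ∈ Q ↔ s⁻¹ * y * s ∈ P := fun y => by
    rw [hQdef]; exact sr_mem_conj s P y
  have hz'ne : z' ≠ z := by
    intro h
    apply hs
    rw [hS₀]
    calc s * z = (s * z * s⁻¹) * s := by group
      _ = z * s := by rw [← hz'def, h]
  have hQS₀ : Q ≤ S₀ := by
    intro y hy
    have h1 := hsc _ (hPS₀ ((hmemQ y).mp hy))
    have h3 : s * (s⁻¹ * y * s) * s⁻¹ = y := by group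
    rw [h3] at h1
    exact h1
  have hQn : ∀ t ∈ S₀, ∀ y ∈ Q, t * y * t⁻¹ ∈ Q := by
    intro t ht y hy
    rw [hmemQ] at hy ⊢
    have h1 := hPn _ (hsc' t ht) _ hy
    have h3 : s⁻¹ * t * s * (s⁻¹ * y * s) * (s⁻¹ * t * s)⁻¹ = s⁻¹ * (t * y * t⁻¹) * s := by
      group
    rw [h3] at h1
    exact h1
  obtain ⟨hcomm, hinf, hcent⟩ :=
    sr_rel h2 hr S₀ P Q hPS₀ hQS₀ hPn hQn z z' hP hQ (Ne.symm hz'ne)
  -- the sectional rank of `P`
  have part1 : ∀ H K : Subgroup S, K ≤ H → H ≤ P → (∀ x ∈ H, x ^ 2 ∈ K) →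
      K.relIndex H ≤ 2 ^ 2 := by
    intro H K hKH hHP hsq
    obtain ⟨H₂, hH₂⟩ : ∃ H₂, H₂ = H.map (MulAut.conj s).toMonoidHom := ⟨_, rfl⟩
    obtain ⟨K₂, hK₂⟩ : ∃ K₂, K₂ = K.map (MulAut.conj s).toMonoidHom := ⟨_, rfl⟩
    have hH₂Q : H₂ ≤ Q := by rw [hH₂, hQdef]; exact Subgroup.map_mono hHP
    have hK₂H₂ : K₂ ≤ H₂ := by rw [hH₂, hK₂]; exact Subgroup.map_mono hKH
    have hcH : ∀ a ∈ H, ∀ b ∈ H₂, a * b = b * a :=
      fun a ha b hb => hcomm a (hHP ha) b (hH₂Q hb)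
    have hcK : ∀ a ∈ K, ∀ b ∈ K₂, a * b = b * a :=
      fun a ha b hb => hcH a (hKH ha) b (hK₂H₂ hb)
    have hiH : H ⊓ H₂ = ⊥ := by
      rw [eq_bot_iff, ← hinf]; exact inf_le_inf hHP hH₂Q
    have hiK : K ⊓ K₂ = ⊥ := by
      rw [eq_bot_iff, ← hiH]; exact inf_le_inf hKH hK₂H₂
    have c1 : Nat.card ↥(H ⊔ H₂) = Nat.card H * Nat.card H₂ := sr_prod_card H H₂ hcH hiH
    have c2 : Nat.card ↥(K ⊔ K₂) = Nat.card K * Nat.card K₂ := sr_prod_card K K₂ hcK hiK
    have c3 : Nat.card H₂ = Nat.card H := by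
      rw [hH₂]; exact Subgroup.card_map_of_injective (MulAut.conj s).injective
    have c4 : Nat.card K₂ = Nat.card K := by
      rw [hK₂]; exact Subgroup.card_map_of_injective (MulAut.conj s).injective
    have hle : K ⊔ K₂ ≤ H ⊔ H₂ := sup_le_sup hKH hK₂H₂
    have c5 : Nat.card H = Nat.card K * K.relIndex H :=
      Cfsg.Agent.Lib.Helper1.card_eq_card_mul_relIndex hKH
    have c6 : Nat.card ↥(H ⊔ H₂) = Nat.card ↥(K ⊔ K₂) * (K ⊔ K₂).relIndex (H ⊔ H₂) :=
      Cfsg.Agent.Lib.Helper1.card_eq_card_mul_relIndex hle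
    have hsq' : ∀ x ∈ H ⊔ H₂, x ^ 2 ∈ K ⊔ K₂ := by
      intro x hx
      obtain ⟨a, ha, b, hb, rfl⟩ := sr_mem_sup_comm H H₂ hcH x hx
      have h1 : (a * b) ^ 2 = a ^ 2 * b ^ 2 := by
        rw [pow_two, pow_two, pow_two]
        calc a * b * (a * b) = a * (b * a) * b := by group
          _ = a * (a * b) * b := by rw [hcH a ha b hb]
          _ = a * a * (b * b) := by group
      rw [h1]
      refine Subgroup.mul_mem_sup (hsq a ha) ?_
      rw [hH₂] at hb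
      obtain ⟨b₀, hb₀, rfl⟩ := hb
      rw [hK₂, ← map_pow]
      exact Subgroup.mem_map_of_mem _ (hsq b₀ hb₀)
    have c7 := sr_relIndex_le hr (H ⊔ H₂) (K ⊔ K₂) hsq'
    have hKpos : 0 < Nat.card K := Nat.card_pos
    have c8 : Nat.card K * Nat.card K * (K.relIndex H * K.relIndex H) =
        Nat.card K * Nat.card K * (K ⊔ K₂).relIndex (H ⊔ H₂) := by
      rw [c1, c2, c3, c4] at c6
      rw [← c6]
      conv_rhs => rw [c5]
      ring
    have c9 : K.relIndex H * K.relIndex H = (K ⊔ K₂).relIndex (H ⊔ H₂) :=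
      Nat.eq_of_mul_eq_mul_left (Nat.mul_pos hKpos hKpos) c8
    by_contra hcon
    push Not at hcon
    have h5 : 5 ≤ K.relIndex H := by
      norm_num at hcon
      omega
    have h25 : 25 ≤ K.relIndex H * K.relIndex H := Nat.mul_le_mul h5 h5
    rw [c9] at h25
    norm_num at c7
    omega
  have hz'S₀ : z' ∈ S₀ := hQS₀ hQ.1
  have hz'z : z' * z = z * z' := (hS₀ z').mp hz'S₀
  have hz'1 : z' ≠ 1 := hQ.2.1
  have hz'c : ∀ t ∈ S₀, t * z' = z' * t := by
    intro t ht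
    have h1 := (hS₀ _).mp (hsc' t ht)
    rw [hz'def]
    calc t * (s * z * s⁻¹) = s * ((s⁻¹ * t * s) * z) * s⁻¹ := by group
      _ = s * (z * (s⁻¹ * t * s)) * s⁻¹ := by rw [h1]
      _ = s * z * s⁻¹ * t := by group
  have hs_z' : s * z' * s⁻¹ = z := by
    have h1 := (hS₀ _).mp hs2
    rw [hz'def]
    calc s * (s * z * s⁻¹) * s⁻¹ = (s * s * z) * (s⁻¹ * s⁻¹) := by group
      _ = z * (s * s) * (s⁻¹ * s⁻¹) := by rw [h1]
      _ = z := by group
  have hs_z : s⁻¹ * z * s = z' := by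
    calc s⁻¹ * z * s = s⁻¹ * (s * z' * s⁻¹) * s := by rw [hs_z']
      _ = z' := by group
  obtain ⟨w, hwdef⟩ : ∃ w, w = z * z' := ⟨_, rfl⟩
  have hZ : ∀ c ∈ S₀, (∀ t ∈ S₀, t * c = c * t) → c = 1 ∨ c = z ∨ c = z' ∨ c = w := by
    intro c hc hcc
    rw [hwdef]
    exact hcent c hc (fun a ha => hcc a (hPS₀ ha)) (fun b hb => hcc b (hQS₀ hb))
  have hw1 : w ≠ 1 := by
    intro h
    apply hz'ne
    rw [hwdef] at h
    calc z' = z⁻¹ * (z * z') := by group
      _ = z := by rw [h, mul_one, hzinv]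
  have hwz : w ≠ z := by
    intro h
    apply hz'1
    rw [hwdef] at h
    calc z' = z⁻¹ * (z * z') := by group
      _ = 1 := by rw [h]; group
  have hwz' : w ≠ z' := by
    intro h
    apply hz1
    rw [hwdef] at h
    calc z = (z * z') * z'⁻¹ := by group
      _ = 1 := by rw [h]; group
  have hN : ∀ n ∈ Subgroup.normalizer (S₀ : Set S), n ∈ S₀ ∨ s⁻¹ * n ∈ S₀ := by
    intro n hn
    have hnc : ∀ t ∈ S₀, n * t * n⁻¹ ∈ S₀ :=
      fun t ht => (Subgroup.mem_normalizer_iff.mp hn t).mp ht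
    have hnc' : ∀ t ∈ S₀, n⁻¹ * t * n ∈ S₀ :=
      fun t ht => (Subgroup.mem_normalizer_iff''.mp hn t).mp ht
    have hconj : ∀ c ∈ S₀, (∀ t ∈ S₀, t * c = c * t) → c ≠ 1 →
        n * c * n⁻¹ = z ∨ n * c * n⁻¹ = z' ∨ n * c * n⁻¹ = w := by
      intro c hc hcc hc1
      rcases hZ (n * c * n⁻¹) (hnc c hc) (fun t ht => by
        have h1 := hcc _ (hnc' t ht)
        calc t * (n * c * n⁻¹) = n * ((n⁻¹ * t * n) * c) * n⁻¹ := by group
          _ = n * (c * (n⁻¹ * t * n)) * n⁻¹ := by rw [h1]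
          _ = n * c * n⁻¹ * t := by group) with h | h | h | h
      · exfalso
        apply hc1
        calc c = n⁻¹ * (n * c * n⁻¹) * n := by group
          _ = 1 := by rw [h]; group
      · exact Or.inl h
      · exact Or.inr (Or.inl h)
      · exact Or.inr (Or.inr h)
    have hzcS₀ : ∀ t ∈ S₀, t * z = z * t := fun t ht => (hS₀ t).mp ht
    rcases hconj z hzS₀ hzcS₀ hz1 with h | h | h
    · left
      rw [hS₀]
      calc n * z = (n * z * n⁻¹) * n := by group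
        _ = z * n := by rw [h]
    · right
      rw [hS₀]
      rw [hz'def] at h
      calc s⁻¹ * n * z = s⁻¹ * (n * z * n⁻¹) * n := by group
        _ = s⁻¹ * (s * z * s⁻¹) * n := by rw [h]
        _ = z * (s⁻¹ * n) := by group
    · exfalso
      rcases hconj z' hz'S₀ hz'c hz'1 with h' | h' | h'
      · have h3 : n * s ∈ S₀ := by
          rw [hS₀]
          calc n * s * z = n * (s * z * s⁻¹) * n⁻¹ * (n * s) := by group
            _ = n * z' * n⁻¹ * (n * s) := by rw [← hz'def]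
            _ = z * (n * s) := by rw [h']
        have h4 : n * z * n⁻¹ = z' := by
          calc n * z * n⁻¹ = (n * s) * (s⁻¹ * z * s) * (n * s)⁻¹ := by group
            _ = (n * s) * z' * (n * s)⁻¹ := by rw [hs_z]
            _ = z' * (n * s) * (n * s)⁻¹ := by rw [hz'c _ h3]
            _ = z' := by group
        rw [h] at h4
        exact hwz' h4
      · have h3 : s⁻¹ * n * s ∈ S₀ := by
          rw [hS₀]
          have h5 : n * z' = z' * n := by
            calc n * z' = (n * z' * n⁻¹) * n := by group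
              _ = z' * n := by rw [h']
          have h6 : s⁻¹ * z' * s = z := by rw [hz'def]; group
          calc s⁻¹ * n * s * z = s⁻¹ * (n * (s * z * s⁻¹)) * s := by group
            _ = s⁻¹ * (n * z') * s := by rw [← hz'def]
            _ = s⁻¹ * (z' * n) * s := by rw [h5]
            _ = (s⁻¹ * z' * s) * (s⁻¹ * n * s) := by group
            _ = z * (s⁻¹ * n * s) := by rw [h6]
        have h4 : n ∈ S₀ := by
          have h6 := hsc _ h3
          have h7 : s * (s⁻¹ * n * s) * s⁻¹ = n := by group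
          rw [h7] at h6
          exact h6
        have h8 : n * z * n⁻¹ = z := by
          rw [(hS₀ n).mp h4]; group
        rw [h] at h8
        exact hwz h8
      · apply hz'ne
        have h9 : n * z' * n⁻¹ = n * z * n⁻¹ := by rw [h, h']
        calc z' = n⁻¹ * (n * z' * n⁻¹) * n := by group
          _ = n⁻¹ * (n * z * n⁻¹) * n := by rw [h9]
          _ = z := by group
  have hS₀N : S₀ ≤ Subgroup.normalizer (S₀ : Set S) := Subgroup.le_normalizer
  have hN2 : ∀ n ∈ Subgroup.normalizer (S₀ : Set S), n * n ∈ S₀ := by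
    intro n hn
    rcases hN n hn with h | h
    · exact S₀.mul_mem h h
    · have h1 : n * n = (s * s) * (s⁻¹ * (s⁻¹ * n) * s) * (s⁻¹ * n) := by group
      rw [h1]
      exact S₀.mul_mem (S₀.mul_mem hs2 (hsc' _ h)) h
  have hsw : s * w = w * s := by
    have h1 : s * w * s⁻¹ = w := by
      rw [hwdef]
      calc s * (z * z') * s⁻¹ = (s * z * s⁻¹) * (s * z' * s⁻¹) := by group
        _ = z' * z := by rw [hs_z', ← hz'def]
        _ = z * z' := hz'z
    calc s * w = (s * w * s⁻¹) * s := by group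
      _ = w * s := by rw [h1]
  have hwS₀c : ∀ t ∈ S₀, t * w = w * t := by
    intro t ht
    rw [hwdef]
    calc t * (z * z') = (t * z) * z' := by group
      _ = (z * t) * z' := by rw [(hS₀ t).mp ht]
      _ = z * (t * z') := by group
      _ = z * (z' * t) := by rw [hz'c t ht]
      _ = z * z' * t := by group
  have hwN : ∀ n ∈ Subgroup.normalizer (S₀ : Set S), n * w = w * n := by
    intro n hn
    rcases hN n hn with h | h
    · exact hwS₀c n h
    · have h1 := hwS₀c _ h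
      calc n * w = s * ((s⁻¹ * n) * w) := by group
        _ = s * (w * (s⁻¹ * n)) := by rw [h1]
        _ = (s * w) * (s⁻¹ * n) := by group
        _ = w * s * (s⁻¹ * n) := by rw [hsw]
        _ = w * n := by group
  have hwS₀ : w ∈ S₀ := by rw [hwdef]; exact S₀.mul_mem hzS₀ hz'S₀
  have hNtop : Subgroup.normalizer (S₀ : Set S) = ⊤ := by
    by_contra hN₁
    obtain ⟨N₁, hN₁def⟩ : ∃ N₁, N₁ = Subgroup.normalizer (S₀ : Set S) := ⟨_, rfl⟩
    rw [← hN₁def] at hN₁ hN hN2 hwN hS₀N hsN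
    have hlt2 : N₁ < Subgroup.normalizer (N₁ : Set S) :=
      Group.normalizerCondition_of_isNilpotent N₁ (lt_top_iff_ne_top.mpr hN₁)
    obtain ⟨u, huN, hu⟩ := SetLike.exists_of_lt hlt2
    have BC : ∀ v, v ∈ Subgroup.normalizer (N₁ : Set S) → v ∉ N₁ →
        v * z * v⁻¹ ≠ z ∧ v * z * v⁻¹ ≠ z' ∧ v * z * v⁻¹ ≠ w ∧ v * z * v⁻¹ ∈ S₀ ∧
        ((∀ a ∈ P, a * (v * z * v⁻¹) = (v * z * v⁻¹) * a) ∨
          (∀ b ∈ Q, b * (v * z * v⁻¹) = (v * z * v⁻¹) * b)) := by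
      intro v hvN hv
      have hvc : ∀ n ∈ N₁, v * n * v⁻¹ ∈ N₁ :=
        fun n hn => (Subgroup.mem_normalizer_iff.mp hvN n).mp hn
      have hvc' : ∀ n ∈ N₁, v⁻¹ * n * v ∈ N₁ :=
        fun n hn => (Subgroup.mem_normalizer_iff''.mp hvN n).mp hn
      obtain ⟨ζ, hζdef⟩ : ∃ ζ, ζ = v * z * v⁻¹ := ⟨_, rfl⟩
      rw [← hζdef]
      have hζN : ζ ∈ N₁ := by rw [hζdef]; exact hvc z (hS₀N hzS₀)
      have hcomm_iff : ∀ n : S, n * ζ = ζ * n ↔ v⁻¹ * n * v ∈ S₀ := by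
        intro n
        rw [hS₀, hζdef]
        constructor
        · intro h
          calc v⁻¹ * n * v * z = v⁻¹ * (n * (v * z * v⁻¹)) * v := by group
            _ = v⁻¹ * ((v * z * v⁻¹) * n) * v := by rw [h]
            _ = z * (v⁻¹ * n * v) := by group
        · intro h
          calc n * (v * z * v⁻¹) = v * ((v⁻¹ * n * v) * z) * v⁻¹ := by group
            _ = v * (z * (v⁻¹ * n * v)) * v⁻¹ := by rw [h]
            _ = v * z * v⁻¹ * n := by group
      have h1 : ζ ≠ z := by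
        intro h
        apply hv
        apply hS₀N
        rw [hS₀]
        calc v * z = (v * z * v⁻¹) * v := by group
          _ = z * v := by rw [← hζdef, h]
      have h2' : ζ ≠ z' := by
        intro h
        apply hv
        have h3 : s⁻¹ * v ∈ S₀ := by
          rw [hS₀]
          calc s⁻¹ * v * z = s⁻¹ * (v * z * v⁻¹) * v := by group
            _ = s⁻¹ * (s * z * s⁻¹) * v := by rw [← hζdef, h, hz'def]
            _ = z * (s⁻¹ * v) := by group
        have h4 : v = s * (s⁻¹ * v) := by group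
        rw [h4]
        exact N₁.mul_mem hsN (hS₀N h3)
      have h3 : ζ ≠ w := by
        intro h
        apply hs
        have h5 : z = v⁻¹ * w * v := by
          rw [← h, hζdef]; group
        have hall : ∀ n ∈ N₁, n * z = z * n := by
          intro n hn
          have h4 := hwN _ (hvc n hn)
          rw [h5]
          calc n * (v⁻¹ * w * v) = v⁻¹ * ((v * n * v⁻¹) * w) * v := by group
            _ = v⁻¹ * (w * (v * n * v⁻¹)) * v := by rw [h4]
            _ = v⁻¹ * w * v * n := by group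
        exact (hS₀ s).mpr (hall s hsN)
      have h4 : ζ ∈ S₀ := by
        by_contra hζ
        have h5 : s⁻¹ * ζ ∈ S₀ := (hN ζ hζN).resolve_left hζ
        have h6 : ∀ a ∈ P, a * a = 1 := by
          intro a ha
          have h7 : (a * a) * ζ = ζ * (a * a) := by
            rw [hcomm_iff]
            have h8 := hN2 _ (hvc' a (hS₀N (hPS₀ ha)))
            have h9 : v⁻¹ * a * v * (v⁻¹ * a * v) = v⁻¹ * (a * a) * v := by group
            rw [h9] at h8
            exact h8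
          have h10 : ζ * (a * a) * ζ⁻¹ ∈ Q := by
            rw [hmemQ]
            have h11 := hPn _ h5 _ (P.mul_mem ha ha)
            have h12 : s⁻¹ * ζ * (a * a) * (s⁻¹ * ζ)⁻¹ = s⁻¹ * (ζ * (a * a) * ζ⁻¹) * s := by
              group
            rw [h12] at h11
            exact h11
          have h13 : ζ * (a * a) * ζ⁻¹ = a * a := by
            rw [← h7]; group
          rw [h13] at h10
          have h14 : a * a ∈ P ⊓ Q := ⟨P.mul_mem ha ha, h10⟩
          rw [hinf, Subgroup.mem_bot] at h14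
          exact h14
        apply habP
        have hi : ∀ a ∈ P, a⁻¹ = a := fun a ha => inv_eq_of_mul_eq_one_left (h6 a ha)
        calc aP * bP = (aP * bP)⁻¹ := (hi _ (P.mul_mem haP hbP)).symm
          _ = bP⁻¹ * aP⁻¹ := mul_inv_rev _ _
          _ = bP * aP := by rw [hi _ haP, hi _ hbP]
      refine ⟨h1, h2', h3, h4, ?_⟩
      by_contra hcon
      push Not at hcon
      obtain ⟨⟨a, ha, hane⟩, ⟨b, hb, hbne⟩⟩ := hcon
      have ha' : s⁻¹ * (v⁻¹ * a * v) ∈ S₀ := by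
        have h5 := hN _ (hvc' a (hS₀N (hPS₀ ha)))
        exact h5.resolve_left (fun h => hane ((hcomm_iff a).mpr h))
      have hb' : s⁻¹ * (v⁻¹ * b * v) ∈ S₀ := by
        have h5 := hN _ (hvc' b (hS₀N (hQS₀ hb)))
        exact h5.resolve_left (fun h => hbne ((hcomm_iff b).mpr h))
      have h5 : v⁻¹ * (a⁻¹ * b) * v ∈ S₀ := by
        have h6 := S₀.mul_mem (S₀.inv_mem ha') hb'
        have h7 : (s⁻¹ * (v⁻¹ * a * v))⁻¹ * (s⁻¹ * (v⁻¹ * b * v)) = v⁻¹ * (a⁻¹ * b) * v := by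
          group
        rw [h7] at h6
        exact h6
      have h6 : (a⁻¹ * b) * ζ = ζ * (a⁻¹ * b) := (hcomm_iff _).mpr h5
      have ha₁ : ζ * a * ζ⁻¹ ∈ P := hPn ζ h4 a ha
      have hb₁ : ζ * b * ζ⁻¹ ∈ Q := hQn ζ h4 b hb
      have h7 : a * (ζ * a * ζ⁻¹)⁻¹ = b * (ζ * b * ζ⁻¹)⁻¹ := by
        have h8 : ζ * (a⁻¹ * b) * ζ⁻¹ = a⁻¹ * b := by rw [← h6]; group
        calc a * (ζ * a * ζ⁻¹)⁻¹ = a * (ζ * (a⁻¹ * b) * ζ⁻¹) * (ζ * b * ζ⁻¹)⁻¹ := by group
          _ = a * (a⁻¹ * b) * (ζ * b * ζ⁻¹)⁻¹ := by rw [h8]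
          _ = b * (ζ * b * ζ⁻¹)⁻¹ := by group
      have h9 : a * (ζ * a * ζ⁻¹)⁻¹ ∈ P ⊓ Q :=
        ⟨P.mul_mem ha (P.inv_mem ha₁), by rw [h7]; exact Q.mul_mem hb (Q.inv_mem hb₁)⟩
      rw [hinf, Subgroup.mem_bot] at h9
      apply hane
      have h10 : a = ζ * a * ζ⁻¹ := mul_inv_eq_one.mp h9
      calc a * ζ = (ζ * a * ζ⁻¹) * ζ := by rw [← h10]
        _ = ζ * a := by group
    have huinvN : u⁻¹ ∈ Subgroup.normalizer (N₁ : Set S) := inv_mem huN
    have huinv : u⁻¹ ∉ N₁ := fun h => hu (by simpa using N₁.inv_mem h)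
    have husN : u * s ∈ Subgroup.normalizer (N₁ : Set S) :=
      mul_mem huN (Subgroup.le_normalizer hsN)
    have hus : u * s ∉ N₁ := fun h => hu (by
      have h1 := N₁.mul_mem h (N₁.inv_mem hsN)
      simpa using h1)
    obtain ⟨b1, b2, b3, b4, b5⟩ := BC u huN hu
    obtain ⟨-, -, -, -, c5⟩ := BC u⁻¹ huinvN huinv
    obtain ⟨d1, d2, d3, -, -⟩ := BC (u * s) husN hus
    obtain ⟨ζ, hζdef⟩ : ∃ ζ, ζ = u * z * u⁻¹ := ⟨_, rfl⟩
    rw [← hζdef] at b4 b5
    have hζN : ζ ∈ N₁ := hS₀N b4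
    have hus_z : u * s * z * (u * s)⁻¹ = u * z' * u⁻¹ := by rw [hz'def]; group
    rw [hus_z] at d1 d2 d3
    simp only [inv_inv] at c5
    have fin : ∀ (P₁ : Subgroup S) (z₁ : S) (R₀ : Subgroup S) (z₀ : S), SrGood P₁ z₁ →
        P₁ ≤ S₀ → (∀ t ∈ S₀, ∀ x ∈ P₁, t * x * t⁻¹ ∈ P₁) → (z₁ = z ∨ z₁ = z') →
        (∀ a ∈ P₁, a * ζ = ζ * a) → SrGood R₀ z₀ → R₀ ≤ S₀ →
        (∀ t ∈ S₀, ∀ x ∈ R₀, t * x * t⁻¹ ∈ R₀) →
        u * z₀ * u⁻¹ ≠ z → u * z₀ * u⁻¹ ≠ z' → u * z₀ * u⁻¹ ≠ w →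
        (∀ x ∈ R₀, x * (u⁻¹ * z * u) = (u⁻¹ * z * u) * x) → False := by
      intro P₁ z₁ R₀ z₀ hP₁ hP₁S hP₁n hz₁ hP₁ζ hR₀ hR₀S hR₀n e1 e2 e3 hR₀c
      obtain ⟨R, hRdef⟩ : ∃ R, R = R₀.map (MulAut.conj u).toMonoidHom := ⟨_, rfl⟩
      have hR : SrGood R (u * z₀ * u⁻¹) := by rw [hRdef]; exact sr_good_conj u hR₀
      have hmemR : ∀ y, y ∈ R ↔ u⁻¹ * y * u ∈ R₀ := fun y => by
        rw [hRdef]; exact sr_mem_conj u R₀ y
      obtain ⟨T, hTdef⟩ : ∃ T, T = S₀ ⊓ Subgroup.centralizer ({ζ} : Set S) := ⟨_, rfl⟩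
      have hmemT : ∀ t, t ∈ T ↔ t ∈ S₀ ∧ t * ζ = ζ * t := by
        intro t
        rw [hTdef, Subgroup.mem_inf, Subgroup.mem_centralizer_iff]
        constructor
        · rintro ⟨h1, h3⟩
          exact ⟨h1, (h3 ζ rfl).symm⟩
        · rintro ⟨h1, h3⟩
          refine ⟨h1, fun y hy => ?_⟩
          rw [Set.mem_singleton_iff] at hy
          rw [hy]
          exact h3.symm
      have hTS : T ≤ S₀ := fun t ht => ((hmemT t).mp ht).1
      have hP₁T : P₁ ≤ T := fun a ha => (hmemT a).mpr ⟨hP₁S ha, hP₁ζ a ha⟩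
      have hRS : R ≤ S₀ := by
        intro y hy
        rw [hS₀]
        have h1 := hR₀c _ ((hmemR y).mp hy)
        calc y * z = u * ((u⁻¹ * y * u) * (u⁻¹ * z * u)) * u⁻¹ := by group
          _ = u * ((u⁻¹ * z * u) * (u⁻¹ * y * u)) * u⁻¹ := by rw [h1]
          _ = z * y := by group
      have hRT : R ≤ T := by
        intro y hy
        rw [hmemT]
        refine ⟨hRS hy, ?_⟩
        have h1 := (hS₀ _).mp (hR₀S ((hmemR y).mp hy))
        rw [hζdef]
        calc y * (u * z * u⁻¹) = u * ((u⁻¹ * y * u) * z) * u⁻¹ := by group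
          _ = u * (z * (u⁻¹ * y * u)) * u⁻¹ := by rw [h1]
          _ = u * z * u⁻¹ * y := by group
      have hP₁nT : ∀ t ∈ T, ∀ x ∈ P₁, t * x * t⁻¹ ∈ P₁ := fun t ht => hP₁n t (hTS ht)
      have hRnT : ∀ t ∈ T, ∀ y ∈ R, t * y * t⁻¹ ∈ R := by
        intro t ht y hy
        rw [hmemR] at hy ⊢
        have h1 : u⁻¹ * t * u ∈ S₀ := by
          rw [hS₀]
          have h3 := ((hmemT t).mp ht).2
          rw [hζdef] at h3
          calc u⁻¹ * t * u * z = u⁻¹ * (t * (u * z * u⁻¹)) * u := by group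
            _ = u⁻¹ * ((u * z * u⁻¹) * t) * u := by rw [h3]
            _ = z * (u⁻¹ * t * u) := by group
        have h3 := hR₀n _ h1 _ hy
        have h4 : u⁻¹ * t * u * (u⁻¹ * y * u) * (u⁻¹ * t * u)⁻¹ = u⁻¹ * (t * y * t⁻¹) * u := by
          group
        rw [h4] at h3
        exact h3
      have hne1 : z₁ ≠ u * z₀ * u⁻¹ := by
        rcases hz₁ with h | h
        · rw [h]; exact fun h' => e1 h'.symm
        · rw [h]; exact fun h' => e2 h'.symm
      obtain ⟨-, -, hcentT⟩ :=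
        sr_rel h2 hr T P₁ R hP₁T hRT hP₁nT hRnT z₁ (u * z₀ * u⁻¹) hP₁ hR hne1
      have hwT : w ∈ T := (hmemT w).mpr ⟨hwS₀, (hwN ζ hζN).symm⟩
      rcases hcentT w hwT (fun a ha => hwN a (hS₀N (hP₁S ha)))
        (fun b hb => hwN b (hS₀N (hRS hb))) with h | h | h | h
      · exact hw1 h
      · rcases hz₁ with h' | h'
        · rw [h'] at h; exact hwz h
        · rw [h'] at h; exact hwz' h
      · exact e3 h.symm
      · rcases hz₁ with h' | h'
        · rw [h', hwdef] at h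
          exact e2 (mul_left_cancel h).symm
        · rw [h', hwdef, ← hz'z] at h
          exact e1 (mul_left_cancel h).symm
    rcases b5 with hb5 | hb5 <;> rcases c5 with hc5 | hc5
    · exact fin P z P z hP hPS₀ hPn (Or.inl rfl) hb5 hP hPS₀ hPn b1 b2 b3 hc5
    · exact fin P z Q z' hP hPS₀ hPn (Or.inl rfl) hb5 hQ hQS₀ hQn d1 d2 d3 hc5
    · exact fin Q z' P z hQ hQS₀ hQn (Or.inr rfl) hb5 hP hPS₀ hPn b1 b2 b3 hc5
    · exact fin Q z' Q z' hQ hQS₀ hQn (Or.inr rfl) hb5 hQ hQS₀ hQn d1 d2 d3 hc5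
  refine ⟨part1, ?_⟩
  rw [Subgroup.index_eq_two_iff']
  refine ⟨s⁻¹, fun b => ?_⟩
  have hb : b ∈ Subgroup.normalizer (S₀ : Set S) := by rw [hNtop]; exact Subgroup.mem_top b
  rcases hN b hb with h | h
  · right
    refine ⟨h, fun h' => hs ?_⟩
    have h1 := S₀.mul_mem h' (S₀.inv_mem h)
    have h3 : s⁻¹ * b * b⁻¹ = s⁻¹ := by group
    rw [h3] at h1
    simpa using S₀.inv_mem h1
  · left
    refine ⟨h, fun h' => hs ?_⟩
    have h1 := S₀.mul_mem h (S₀.inv_mem h')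
    have h3 : s⁻¹ * b * b⁻¹ = s⁻¹ := by group
    rw [h3] at h1
    simpa using S₀.inv_mem h1

end Cfsg.Agent.Lib.Helper50
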