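import Mathlib
import Cfsg.Prelude.Def_Transfer
import Cfsg.Agent.Lib.Helper47.Subn
import Cfsg.Agent.Lib.Helper50.SylowAux
import Cfsg.Agent.Lib.Helper50.ChermakDelgado

set_option autoImplicit false

namespace Cfsg.Agent.Lib.Helper50

section SignTransfer

/-- If `y` acts semiregularly on the cosets of `U` and `|X : U| = |y| * r` with `|y|` even and `r`
odd, then `y` induces an odd permutation: there is a homomorphism to `{±1}` sending `y` to `-1`. -/
theorem st_exists_hom_neg_one {X : Type*} [Group X] [Finite X] (U : Subgroup X) (y : X)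
    (hsr : ∀ (m : ℕ) (g : X), g⁻¹ * y ^ m * g ∈ U → y ^ m = 1)
    (r : ℕ) (hr : Odd r) (hidx : U.index = orderOf y * r) (heven : Even (orderOf y)) :
    ∃ f : X →* ℤˣ, f y = -1 := by
  classical
  haveI : Fintype (X ⧸ U) := Fintype.ofFinite _
  refine ⟨(Equiv.Perm.sign).comp (MulAction.toPermHom X (X ⧸ U)), ?_⟩
  obtain ⟨σ, hσ⟩ : ∃ σ : Equiv.Perm (X ⧸ U), σ = MulAction.toPermHom X (X ⧸ U) y := ⟨_, rfl⟩
  have hpow : ∀ m : ℕ, σ ^ m = MulAction.toPermHom X (X ⧸ U) (y ^ m) := by
    intro m; rw [hσ, map_pow]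
  have hfix : ∀ (m : ℕ) (q : X ⧸ U), (σ ^ m) q = q → y ^ m = 1 := by
    intro m q hq
    obtain ⟨g, rfl⟩ := QuotientGroup.mk_surjective q
    rw [hpow] at hq
    have h1 : (MulAction.toPermHom X (X ⧸ U) (y ^ m)) (g : X ⧸ U)
        = ((y ^ m * g : X) : X ⧸ U) := rfl
    rw [h1, QuotientGroup.eq] at hq
    apply hsr m g
    have h2 : g⁻¹ * y ^ m * g = ((y ^ m * g)⁻¹ * g)⁻¹ := by group
    rw [h2]
    exact U.inv_mem hq
  have hord : orderOf σ = orderOf y := by
    rw [orderOf_eq_orderOf_iff]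
    intro m
    constructor
    · intro h
      apply hfix m ((1 : X) : X ⧸ U)
      rw [h]; rfl
    · intro h
      rw [hpow, h, map_one]
  have hne1 : y ≠ 1 := by
    intro h
    rw [h, orderOf_one] at heven
    exact absurd heven (by decide)
  have hmoved : ∀ q : X ⧸ U, σ q ≠ q := by
    intro q hq
    have h1 := hfix 1 q (by rw [pow_one]; exact hq)
    rw [pow_one] at h1
    exact hne1 h1
  have hsupp : σ.support = Finset.univ := by
    rw [Finset.eq_univ_iff_forall]
    intro q
    exact Equiv.Perm.mem_support.mpr (hmoved q)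
  have hcyc : ∀ n ∈ σ.cycleType, n = orderOf σ := by
    intro n hn
    have hdvd : n ∣ orderOf σ := Equiv.Perm.dvd_of_mem_cycleType hn
    rw [Equiv.Perm.cycleType_def, Multiset.mem_map] at hn
    obtain ⟨c, hc, hcn⟩ := hn
    have hcn' : c.support.card = n := hcn
    have hc' : c ∈ σ.cycleFactorsFinset := hc
    rw [Equiv.Perm.mem_cycleFactorsFinset_iff] at hc'
    obtain ⟨hcc, hagree⟩ := hc'
    have hcc2 := hcc
    obtain ⟨x, hx, -⟩ := hcc2
    have hxs : x ∈ c.support := Equiv.Perm.mem_support.mpr hx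
    have hpw : ∀ m : ℕ, (σ ^ m) x = (c ^ m) x := by
      intro m
      induction m with
      | zero => simp
      | succ m ih =>
        rw [pow_succ', Equiv.Perm.mul_apply, ih, pow_succ', Equiv.Perm.mul_apply]
        exact (hagree _ (Equiv.Perm.pow_apply_mem_support.mpr hxs)).symm
    have h1 : (σ ^ n) x = x := by
      rw [hpw, ← hcn', ← hcc.orderOf, pow_orderOf_eq_one]
      rfl
    have h2 : y ^ n = 1 := hfix n x h1
    have h3 : σ ^ n = 1 := by rw [hpow, h2, map_one]
    exact Nat.dvd_antisymm hdvd (orderOf_dvd_of_pow_eq_one h3)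
  have hrep : σ.cycleType = Multiset.replicate (Multiset.card σ.cycleType) (orderOf σ) :=
    Multiset.eq_replicate_card.mpr hcyc
  have hsum : σ.cycleType.sum = Multiset.card σ.cycleType * orderOf σ := by
    conv_lhs => rw [hrep]
    rw [Multiset.sum_replicate, smul_eq_mul]
  have hsum2 : σ.cycleType.sum = orderOf y * r := by
    rw [Equiv.Perm.sum_cycleType, hsupp, Finset.card_univ, ← Nat.card_eq_fintype_card,
      ← Subgroup.index_eq_card, hidx]
  have hcard : Multiset.card σ.cycleType = r := by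
    have h1 : Multiset.card σ.cycleType * orderOf y = r * orderOf y := by
      rw [← hord, ← hsum, hsum2, hord, mul_comm]
    exact Nat.eq_of_mul_eq_mul_right (orderOf_pos y) h1
  have hsign : Equiv.Perm.sign σ = -1 := by
    rw [Equiv.Perm.sign_of_cycleType, hsum2, hcard]
    apply Odd.neg_one_pow
    exact Even.add_odd (heven.mul_right r) hr
  rw [MonoidHom.comp_apply, ← hσ]
  exact hsign

theorem st_hom_units_eq_one_of_odd {X : Type*} [Group X] (f : X →* ℤˣ) {g : X}
    (hg : Odd (orderOf g)) : f g = 1 := by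
  rcases Int.units_eq_one_or (f g) with h | h
  · exact h
  · exfalso
    have h1 : f g ^ orderOf g = 1 := by rw [← map_pow, pow_orderOf_eq_one, map_one]
    rw [h, hg.neg_one_pow] at h1
    exact absurd h1 (by decide)

/-- A homomorphism to `{±1}` kills `O^2(G)`. -/
theorem st_hom_eq_one_of_mem_pResidual {G : Type*} [Group G] (f : G →* ℤˣ) {g : G}
    (hg : g ∈ Cfsg.pResidual 2 G) : f g = 1 := by
  have hle : Subgroup.closure {g : G | Nat.Coprime (orderOf g) 2} ≤ f.ker := by
    rw [Subgroup.closure_le]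
    intro x hx
    have hx' : Odd (orderOf x) := Nat.coprime_two_right.mp (show Nat.Coprime (orderOf x) 2 from hx)
    exact MonoidHom.mem_ker.mpr (st_hom_units_eq_one_of_odd f hx')
  exact MonoidHom.mem_ker.mp (hle hg)

/-- `O^2(G)` has no nontrivial homomorphism to `{±1}`. -/
theorem st_hom_pResidual_eq_one {G : Type*} [Group G] (f : ↥(Cfsg.pResidual 2 G) →* ℤˣ)
    (x : ↥(Cfsg.pResidual 2 G)) : f x = 1 := by
  have hle : Subgroup.closure {g : G | Nat.Coprime (orderOf g) 2} ≤
      f.ker.map (Cfsg.pResidual 2 G).subtype := by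
    rw [Subgroup.closure_le]
    intro g hg
    have hgK : g ∈ Cfsg.pResidual 2 G := Subgroup.subset_closure hg
    have hodd : Odd (orderOf (⟨g, hgK⟩ : ↥(Cfsg.pResidual 2 G))) := by
      rw [Subgroup.orderOf_mk]
      exact Nat.coprime_two_right.mp (show Nat.Coprime (orderOf g) 2 from hg)
    exact ⟨⟨g, hgK⟩, MonoidHom.mem_ker.mpr (st_hom_units_eq_one_of_odd f hodd), rfl⟩
  obtain ⟨z, hz, hzx⟩ := hle x.2
  have hzx' : z = x := Subtype.ext hzx
  rw [← hzx']
  exact MonoidHom.mem_ker.mp hz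

theorem st_le_pResidual_of_eq_top {G : Type*} [Group G] (p : ℕ) (L : Subgroup G)
    (hL : Cfsg.pResidual p ↥L = ⊤) : L ≤ Cfsg.pResidual p G := by
  have h1 := Cfsg.Agent.Lib.Helper47.pResidual_map_subtype_eq p L
  rw [hL, ← MonoidHom.range_eq_map, Subgroup.range_subtype] at h1
  exact h1.le.trans (Subgroup.closure_mono (fun x hx => hx.2))

theorem st_card_mul_relIndex {G : Type*} [Group G] {H K : Subgroup G} (h : H ≤ K) :
    Nat.card ↥H * H.relIndex K = Nat.card ↥K := by
  have h1 := Subgroup.card_mul_index (H.subgroupOf K)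
  rw [Nat.card_congr (Subgroup.subgroupOfEquivOfLe h).toEquiv] at h1
  exact h1

/-- Exact factorization gives the product of the orders. -/
theorem st_card_eq_mul_of_exact {G : Type*} [Group G] (A B R : Subgroup G) (hA : A ≤ R)
    (hB : B ≤ R) (hAB : A ⊓ B = ⊥) (hR : ∀ s ∈ R, ∃ a ∈ A, ∃ b ∈ B, s = a * b) :
    Nat.card ↥R = Nat.card ↥A * Nat.card ↥B := by
  rw [← Nat.card_prod]
  symm
  apply Nat.card_congr
  refine Equiv.ofBijective (fun p : ↥A × ↥B =>
    (⟨(p.1 : G) * (p.2 : G), R.mul_mem (hA p.1.2) (hB p.2.2)⟩ : ↥R)) ⟨?_, ?_⟩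
  · rintro ⟨a, b⟩ ⟨a', b'⟩ h
    have h1 : (a : G) * b = a' * b' := congrArg Subtype.val h
    have h2 : (a' : G)⁻¹ * a = b' * (b : G)⁻¹ := by
      have h3 : (a : G) = a' * b' * (b : G)⁻¹ := by rw [← h1]; group
      rw [h3]; group
    have h4 : (a' : G)⁻¹ * a ∈ A ⊓ B :=
      ⟨A.mul_mem (A.inv_mem a'.2) a.2, h2 ▸ B.mul_mem b'.2 (B.inv_mem b.2)⟩
    rw [hAB, Subgroup.mem_bot] at h4
    have h5 : (a : G) = a' := (inv_mul_eq_one.mp h4).symm
    have h6 : (b' : G) = b := by
      rw [h4] at h2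
      exact (mul_inv_eq_one.mp h2.symm)
    exact Prod.ext (Subtype.ext h5) (Subtype.ext h6.symm)
  · rintro ⟨s, hs⟩
    obtain ⟨a, ha, b, hb, rfl⟩ := hR s hs
    exact ⟨(⟨a, ha⟩, ⟨b, hb⟩), rfl⟩

theorem st_card_eq_of_not_dvd_relIndex {G : Type*} [Group G] [Finite G] {p : ℕ} [Fact p.Prime]
    {A B L : Subgroup G} (hA : A ≤ L) (hB : B ≤ L) (hAp : IsPGroup p ↥A) (hBp : IsPGroup p ↥B)
    (hAi : ¬ p ∣ A.relIndex L) (hBi : ¬ p ∣ B.relIndex L) : Nat.card ↥A = Nat.card ↥B := by
  have hp : p.Prime := Fact.out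
  obtain ⟨a, ha⟩ := IsPGroup.iff_card.mp hAp
  obtain ⟨b, hb⟩ := IsPGroup.iff_card.mp hBp
  have eA := st_card_mul_relIndex hA
  have eB := st_card_mul_relIndex hB
  rw [ha] at eA
  rw [hb] at eB
  have hcA : Nat.Coprime (p ^ b) (A.relIndex L) :=
    Nat.Coprime.pow_left b ((Nat.Prime.coprime_iff_not_dvd hp).mpr hAi)
  have hcB : Nat.Coprime (p ^ a) (B.relIndex L) :=
    Nat.Coprime.pow_left a ((Nat.Prime.coprime_iff_not_dvd hp).mpr hBi)
  have h1 : p ^ a ∣ p ^ b := by
    apply hcB.dvd_of_dvd_mul_right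
    rw [eB, ← eA]
    exact Dvd.intro _ rfl
  have h2 : p ^ b ∣ p ^ a := by
    apply hcA.dvd_of_dvd_mul_right
    rw [eA, ← eB]
    exact Dvd.intro _ rfl
  rw [ha, hb]
  exact Nat.dvd_antisymm h1 h2

/-- The sign character of a dihedral group (rotations to `1`, reflections to `-1`). -/
def st_dihSignFun (n : ℕ) : DihedralGroup n → ℤˣ
  | DihedralGroup.r _ => 1
  | DihedralGroup.sr _ => -1

theorem st_dihSignFun_r (n : ℕ) (i : ZMod n) : st_dihSignFun n (DihedralGroup.r i) = 1 := rfl

theorem st_dihSignFun_sr (n : ℕ) (i : ZMod n) : st_dihSignFun n (DihedralGroup.sr i) = -1 := rfl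

def st_dihSign (n : ℕ) : DihedralGroup n →* ℤˣ :=
  MonoidHom.mk' (st_dihSignFun n) (by
    intro a b
    rcases a with i | i <;> rcases b with j | j
    · rw [DihedralGroup.r_mul_r, st_dihSignFun_r, st_dihSignFun_r, st_dihSignFun_r, mul_one]
    · rw [DihedralGroup.r_mul_sr, st_dihSignFun_r, st_dihSignFun_sr, st_dihSignFun_sr, one_mul]
    · rw [DihedralGroup.sr_mul_r, st_dihSignFun_sr, st_dihSignFun_sr, st_dihSignFun_r, mul_one]
    · rw [DihedralGroup.sr_mul_sr, st_dihSignFun_r, st_dihSignFun_sr, st_dihSignFun_sr]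
      simp)

/-- In a dihedral group, every element outside a cyclic subgroup of index 2 is an involution. -/
theorem st_orderOf_eq_two_of_not_mem {G : Type*} [Group G] [Finite G] (D C : Subgroup G)
    (hDih : ∃ n : ℕ, 2 ≤ n ∧ Nonempty (↥D ≃* DihedralGroup n))
    (hCD : C ≤ D) (hC : IsCyclic ↥C) (hCi : C.relIndex D = 2)
    {x : G} (hxD : x ∈ D) (hxC : x ∉ C) : orderOf x = 2 := by
  obtain ⟨n, hn, ⟨e⟩⟩ := hDih
  haveI : Fact (Nat.Prime 2) := ⟨Nat.prime_two⟩
  have key : ∀ x' : ↥D, orderOf (e x') = orderOf (x' : G) := by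
    intro x'
    rw [MulEquiv.orderOf_eq, Subgroup.orderOf_coe]
  rcases hex : e ⟨x, hxD⟩ with i | i
  · obtain ⟨g, hg⟩ := IsCyclic.exists_generator (α := ↥C)
    rcases heg : e ⟨(g : G), hCD g.2⟩ with j | j
    · exfalso
      let ψ : ↥D →* ℤˣ := (st_dihSign n).comp e.toMonoidHom
      have hCker : C.subgroupOf D ≤ ψ.ker := by
        intro z hz
        have hzC : (z : G) ∈ C := Subgroup.mem_subgroupOf.mp hz
        obtain ⟨k, hk⟩ := Subgroup.mem_zpowers_iff.mp (hg ⟨(z : G), hzC⟩)
        have h3 : (g : G) ^ k = (z : G) := by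
          have h4 := congrArg Subtype.val hk
          rw [Subgroup.coe_zpow] at h4
          exact h4
        have hz' : z = (⟨(g : G), hCD g.2⟩ : ↥D) ^ k := by
          apply Subtype.ext
          rw [Subgroup.coe_zpow]
          exact h3.symm
        have h5 : ψ ⟨(g : G), hCD g.2⟩ = 1 := by
          show st_dihSign n (e ⟨(g : G), hCD g.2⟩) = 1
          rw [heg]; rfl
        rw [MonoidHom.mem_ker, hz', map_zpow, h5, one_zpow]
      have hker_ne : ψ.ker ≠ ⊤ := by
        intro htop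
        have h1 : e.symm (DihedralGroup.sr 0) ∈ ψ.ker := by rw [htop]; exact Subgroup.mem_top _
        rw [MonoidHom.mem_ker] at h1
        have h2 : ψ (e.symm (DihedralGroup.sr 0)) = -1 := by
          show st_dihSign n (e (e.symm (DihedralGroup.sr 0))) = -1
          rw [MulEquiv.apply_symm_apply]; rfl
        rw [h2] at h1
        exact absurd h1 (by decide)
      have hidx2 : (C.subgroupOf D).index = 2 := hCi
      have hkidx : ψ.ker.index = 2 := by
        have hd : ψ.ker.index ∣ 2 := by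
          rw [← hidx2]; exact Subgroup.index_dvd_of_le hCker
        have h1 : ψ.ker.index ≠ 1 := fun h => hker_ne (Subgroup.index_eq_one.mp h)
        rcases (Nat.dvd_prime Nat.prime_two).mp hd with h | h
        · exact absurd h h1
        · exact h
      have hrel : (C.subgroupOf D).relIndex ψ.ker = 1 := by
        have h1 := Subgroup.relIndex_mul_index hCker
        rw [hidx2, hkidx] at h1
        omega
      have hle : ψ.ker ≤ C.subgroupOf D := Subgroup.relIndex_eq_one.mp hrel
      have hxker : (⟨x, hxD⟩ : ↥D) ∈ ψ.ker := by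
        rw [MonoidHom.mem_ker]
        show st_dihSign n (e ⟨x, hxD⟩) = 1
        rw [hex]; rfl
      exact hxC (Subgroup.mem_subgroupOf.mp (hle hxker))
    · have hog : orderOf (g : G) = 2 := by
        rw [← key ⟨(g : G), hCD g.2⟩, heg, DihedralGroup.orderOf_sr]
      have hcC : Nat.card ↥C = 2 := by
        rw [← orderOf_eq_card_of_forall_mem_zpowers hg, ← Subgroup.orderOf_coe, hog]
      have hcD : Nat.card ↥D = 4 := by
        have h1 := st_card_mul_relIndex hCD
        rw [hcC, hCi] at h1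
        omega
      have hn2 : n = 2 := by
        have h1 := Nat.card_congr e.toEquiv
        rw [hcD, DihedralGroup.nat_card] at h1
        omega
      subst hn2
      have hsq : (⟨x, hxD⟩ : ↥D) ^ 2 = 1 := by
        apply e.injective
        rw [map_pow, hex, map_one, DihedralGroup.r_pow, DihedralGroup.one_def]
        congr 1
      have hx2 : x ^ 2 = 1 := by
        have h1 := congrArg Subtype.val hsq
        rw [Subgroup.coe_pow] at h1
        exact h1
      have hx1 : x ≠ 1 := fun h => hxC (h ▸ C.one_mem)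
      exact orderOf_eq_prime hx2 hx1
  · rw [← key ⟨x, hxD⟩, hex, DihedralGroup.orderOf_sr]

end SignTransfer

end Cfsg.Agent.Lib.Helper50
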