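import Mathlib
import Cfsg.Prelude.Def_Solvable
import Cfsg.Agent.Lib.Helper1.Tools

set_option autoImplicit false
set_option linter.unusedSimpArgs false

namespace Cfsg.Agent.Lib.Helper50

/-- In a finite solvable group with `O_2 = 1`, an involution fails to centralize some normal
subgroup of odd order. -/
theorem tv_exists_normal_odd {G : Type*} [Group G] [Finite G] [Group.IsSolvable G]
    (hO : Cfsg.pCore 2 G = ⊥) (z : G) (hz1 : z ≠ 1) (hz2 : z * z = 1) :
    ∃ N : Subgroup G, N.Normal ∧ Odd (Nat.card N) ∧ ∃ g ∈ N, z * g * z⁻¹ ≠ g := by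
  classical
  have hbot : (fun N : Subgroup G => N.Normal ∧ Odd (Nat.card N)) ⊥ := ⟨inferInstance, by simp⟩
  obtain ⟨N₀, -, hN₀max⟩ := Finite.exists_le_maximal
    (p := fun N : Subgroup G => N.Normal ∧ Odd (Nat.card N)) (a := ⊥) hbot
  obtain ⟨hN₀n, hN₀odd⟩ := hN₀max.prop
  refine ⟨N₀, hN₀n, hN₀odd, ?_⟩
  by_contra hcon
  push Not at hcon
  have hzC : z ∈ Subgroup.centralizer (N₀ : Set G) := by
    rw [Subgroup.mem_centralizer_iff]
    intro g hg
    have h1 := hcon g hg
    calc g * z = (z * g * z⁻¹) * z := by rw [h1]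
      _ = z * g := by group
  have hzN : z ∉ N₀ := by
    intro hzN
    have h2 : orderOf z = 2 := orderOf_eq_prime (by rw [pow_two]; exact hz2) hz1
    have hdvd : orderOf (⟨z, hzN⟩ : N₀) ∣ Nat.card N₀ := orderOf_dvd_natCard _
    rw [Subgroup.orderOf_mk, h2] at hdvd
    exact (Nat.not_even_iff_odd.mpr hN₀odd) (even_iff_two_dvd.mpr hdvd)
  have hC𝒦 : (fun K : Subgroup G => K.Normal ∧ K ≤ Subgroup.centralizer (N₀ : Set G) ∧ ¬ K ≤ N₀)
      (Subgroup.centralizer (N₀ : Set G)) := ⟨inferInstance, le_rfl, fun h => hzN (h hzC)⟩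
  obtain ⟨K, -, hKmin⟩ := Finite.exists_le_minimal
    (p := fun K : Subgroup G => K.Normal ∧ K ≤ Subgroup.centralizer (N₀ : Set G) ∧ ¬ K ≤ N₀)
    (a := Subgroup.centralizer (N₀ : Set G)) hC𝒦
  obtain ⟨hKn, hKC, hKN⟩ := hKmin.prop
  have hKbot : K ≠ ⊥ := by rintro rfl; exact hKN bot_le
  have hK'lt : ⁅K, K⁆ < K := Group.IsSolvable.commutator_lt_of_ne_bot hKbot
  have hK'N : ⁅K, K⁆ ≤ N₀ := by
    by_contra h
    have hmem : (fun K : Subgroup G => K.Normal ∧ K ≤ Subgroup.centralizer (N₀ : Set G) ∧ ¬ K ≤ N₀)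
        ⁅K, K⁆ := ⟨inferInstance, hK'lt.le.trans hKC, h⟩
    exact absurd (hKmin.le_of_le hmem hK'lt.le) (not_le_of_gt hK'lt)
  have hKnil : Group.IsNilpotent K := by
    apply Subgroup.isNilpotent_of_ker_le_center (Abelianization.of : K →* Abelianization K)
    intro k hk
    rw [Abelianization.ker_of] at hk
    rw [Subgroup.mem_center_iff]
    intro k'
    have h1 : (k : G) ∈ ⁅K, K⁆ := by
      rw [← Subgroup.map_subtype_commutator]
      exact Subgroup.mem_map_of_mem _ hk
    have h2 := hKC k'.2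
    rw [Subgroup.mem_centralizer_iff] at h2
    exact Subtype.ext (h2 _ (hK'N h1)).symm
  obtain ⟨T⟩ : Nonempty (Sylow 2 K) := inferInstance
  have hTn : (T : Subgroup K).Normal :=
    T.normal_of_normalizerCondition Group.normalizerCondition_of_isNilpotent
  have hTc : (T : Subgroup K).Characteristic := T.characteristic_of_normal hTn
  have hTG : ((T : Subgroup K).map K.subtype).Normal := ConjAct.normal_of_characteristic_of_normal
  have hT2 : IsPGroup 2 ((T : Subgroup K).map K.subtype) := T.isPGroup'.map _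
  have hTle : (T : Subgroup K).map K.subtype ≤ Cfsg.pCore 2 G := le_sSup ⟨hTG, hT2⟩
  rw [hO, le_bot_iff] at hTle
  have hTbot : (T : Subgroup K) = ⊥ :=
    (Subgroup.map_eq_bot_iff_of_injective _ K.subtype_injective).mp hTle
  have hKodd : Odd (Nat.card K) := by
    rw [← Nat.not_even_iff_odd, even_iff_two_dvd]
    intro h2
    exact T.ne_bot_of_dvd_card h2 hTbot
  have hsup : (fun N : Subgroup G => N.Normal ∧ Odd (Nat.card N)) (N₀ ⊔ K) := by
    refine ⟨inferInstance, ?_⟩
    have h1 := Cfsg.Agent.Lib.Helper1.card_sup_mul_card_inf N₀ K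
    have hodd : Odd (Nat.card N₀ * Nat.card K) := hN₀odd.mul hKodd
    rw [← h1] at hodd
    exact (Nat.odd_mul.mp hodd).1
  have h3 := hN₀max.le_of_ge hsup le_sup_left
  exact hKN (le_sup_right.trans h3)


/-- For an involution `z`, the commutator `g⁻¹ z g z⁻¹` is inverted by `z`. -/
theorem tv_inv_comm {G : Type*} [Group G] (z g : G) (hzz : z * z = 1) :
    z * (g⁻¹ * z * g * z⁻¹) * z⁻¹ = (g⁻¹ * z * g * z⁻¹)⁻¹ := by
  have hinv : z⁻¹ = z := inv_eq_of_mul_eq_one_left hzz
  calc z * (g⁻¹ * z * g * z⁻¹) * z⁻¹ = z * g⁻¹ * z * g * (z⁻¹ * z⁻¹) := by group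
    _ = z * g⁻¹ * z * g := by rw [hinv, hzz, mul_one]
    _ = z * g⁻¹ * z⁻¹ * g := by rw [hinv]
    _ = (g⁻¹ * z * g * z⁻¹)⁻¹ := by group

section TransvLin

variable {V : Type*} [AddCommGroup V] [Module (ZMod 2) V]

theorem tvl_add_self (v : V) : v + v = 0 := by
  have h : (2 : ZMod 2) • v = v + v := two_smul _ v
  rw [← h]
  have h0 : (2 : ZMod 2) = 0 := by decide
  rw [h0, zero_smul]

theorem tvl_zsmul2 (v : V) : (2 : ℤ) • v = 0 := by rw [two_zsmul]; exact tvl_add_self v

theorem tvl_zsmul_neg2 (v : V) : (-2 : ℤ) • v = 0 := by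
  rw [neg_smul, tvl_zsmul2, neg_zero]

theorem tvl_zsmul4 (v : V) : (4 : ℤ) • v = 0 := by
  have h : (4 : ℤ) • v = (2 : ℤ) • ((2 : ℤ) • v) := by rw [smul_smul]; norm_num
  rw [h, tvl_zsmul2]

theorem tvl_zsmul6 (v : V) : (6 : ℤ) • v = 0 := by
  have h : (6 : ℤ) • v = (3 : ℤ) • ((2 : ℤ) • v) := by rw [smul_smul]; norm_num
  rw [h, tvl_zsmul2, smul_zero]

theorem tvl_zsmul8 (v : V) : (8 : ℤ) • v = 0 := by
  have h : (8 : ℤ) • v = (4 : ℤ) • ((2 : ℤ) • v) := by rw [smul_smul]; norm_num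
  rw [h, tvl_zsmul2, smul_zero]

theorem tvl_zsmul10 (v : V) : (10 : ℤ) • v = 0 := by
  have h : (10 : ℤ) • v = (5 : ℤ) • ((2 : ℤ) • v) := by rw [smul_smul]; norm_num
  rw [h, tvl_zsmul2, smul_zero]

theorem tvl_zsmul12 (v : V) : (12 : ℤ) • v = 0 := by
  have h : (12 : ℤ) • v = (6 : ℤ) • ((2 : ℤ) • v) := by rw [smul_smul]; norm_num
  rw [h, tvl_zsmul2, smul_zero]

theorem tvl_zsmul14 (v : V) : (14 : ℤ) • v = 0 := by
  have h : (14 : ℤ) • v = (7 : ℤ) • ((2 : ℤ) • v) := by rw [smul_smul]; norm_num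
  rw [h, tvl_zsmul2, smul_zero]

theorem tvl_zsmul16 (v : V) : (16 : ℤ) • v = 0 := by
  have h : (16 : ℤ) • v = (8 : ℤ) • ((2 : ℤ) • v) := by rw [smul_smul]; norm_num
  rw [h, tvl_zsmul2, smul_zero]

theorem tvl_zsmul18 (v : V) : (18 : ℤ) • v = 0 := by
  have h : (18 : ℤ) • v = (9 : ℤ) • ((2 : ℤ) • v) := by rw [smul_smul]; norm_num
  rw [h, tvl_zsmul2, smul_zero]

theorem tvl_zsmul20 (v : V) : (20 : ℤ) • v = 0 := by
  have h : (20 : ℤ) • v = (10 : ℤ) • ((2 : ℤ) • v) := by rw [smul_smul]; norm_num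
  rw [h, tvl_zsmul2, smul_zero]

theorem tvl_eq_of_add {a b : V} (h : a + b = 0) : a = b := by
  have h2 := tvl_add_self b
  calc a = a + (b + b) := by rw [h2, add_zero]
    _ = (a + b) + b := by abel
    _ = b := by rw [h, zero_add]

/-- A linear map with fewer than four elements in its range takes at most one nonzero value. -/
theorem tvl_form [Finite V] (a : V →ₗ[ZMod 2] V) (h : Nat.card (LinearMap.range a) < 4) :
    ∃ e : V, ∀ v, a v = 0 ∨ a v = e := by
  classical
  have : Fintype (LinearMap.range a) := Fintype.ofFinite _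
  have hcard : Nat.card (LinearMap.range a) = 2 ^ Module.finrank (ZMod 2) (LinearMap.range a) := by
    rw [Nat.card_eq_fintype_card, Module.card_eq_pow_finrank (K := ZMod 2), ZMod.card]
  rw [hcard] at h
  have hk : Module.finrank (ZMod 2) (LinearMap.range a) ≤ 1 := by
    by_contra hk
    push Not at hk
    have h4 : 2 ^ 2 ≤ 2 ^ Module.finrank (ZMod 2) (LinearMap.range a) :=
      Nat.pow_le_pow_right (by norm_num) hk
    omega
  obtain ⟨w, hw⟩ := finrank_le_one_iff.mp hk
  refine ⟨w, fun v => ?_⟩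
  obtain ⟨c, hc⟩ := hw ⟨a v, LinearMap.mem_range_self a v⟩
  have hc' : c • (w : V) = a v := by simpa using congrArg Subtype.val hc
  have hc01 : ∀ c : ZMod 2, c = 0 ∨ c = 1 := by decide
  rcases hc01 c with rfl | rfl
  · left; rw [← hc', zero_smul]
  · right; rw [← hc', one_smul]

/-- Conjugates of a transvection-like involution are transvection-like. -/
theorem tvl_conj (z h : V ≃ₗ[ZMod 2] V) (e : V)
    (hz : ∀ v, z v = v ∨ z v = v + e) (hze : z e = e) :
    (∀ v, (h * z * h⁻¹) v = v ∨ (h * z * h⁻¹) v = v + h e) ∧ (h * z * h⁻¹) (h e) = h e := by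
  have h1 : ∀ v, h (h⁻¹ v) = v := fun v => by
    have : (h * h⁻¹) v = v := by rw [mul_inv_cancel]; rfl
    exact this
  have h2 : ∀ v, h⁻¹ (h v) = v := fun v => by
    have : (h⁻¹ * h) v = v := by rw [inv_mul_cancel]; rfl
    exact this
  constructor
  · intro v
    simp only [LinearEquiv.mul_apply]
    rcases hz (h⁻¹ v) with h3 | h3
    · left; rw [h3, h1]
    · right; rw [h3, map_add, h1]
  · simp only [LinearEquiv.mul_apply]
    rw [h2, hze]

/-- Two transvection-like involutions: either the product has order dividing four, or they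
generate a copy of `S₃`. -/
theorem tvl_pair (z t : V ≃ₗ[ZMod 2] V) (e f : V)
    (hz : ∀ v, z v = v ∨ z v = v + e) (hze : z e = e)
    (ht : ∀ v, t v = v ∨ t v = v + f) (htf : t f = f) :
    (z * t) ^ 4 = 1 ∨ (z f = f + e ∧ t e = e + f) := by
  rcases hz f with h1 | h1 <;> rcases ht e with h2 | h2
  · left
    ext v
    simp only [pow_succ, pow_zero, one_mul, LinearEquiv.mul_apply, LinearEquiv.coe_one, id_eq]
    apply tvl_eq_of_add
    rcases hz v with h3 | h3 <;> rcases ht v with h4 | h4 <;>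
      simp only [h1, h2, h3, h4, hze, htf, map_add] <;> abel_nf <;>
      simp only [tvl_zsmul2, tvl_zsmul4, tvl_zsmul6, tvl_zsmul8, tvl_zsmul10, tvl_zsmul12, tvl_zsmul14,
        tvl_zsmul16, tvl_zsmul18, tvl_zsmul20, add_zero, zero_add]
  · left
    ext v
    simp only [pow_succ, pow_zero, one_mul, LinearEquiv.mul_apply, LinearEquiv.coe_one, id_eq]
    apply tvl_eq_of_add
    rcases hz v with h3 | h3 <;> rcases ht v with h4 | h4 <;>
      simp only [h1, h2, h3, h4, hze, htf, map_add] <;> abel_nf <;>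
      simp only [tvl_zsmul2, tvl_zsmul4, tvl_zsmul6, tvl_zsmul8, tvl_zsmul10, tvl_zsmul12, tvl_zsmul14,
        tvl_zsmul16, tvl_zsmul18, tvl_zsmul20, add_zero, zero_add]
  · left
    ext v
    simp only [pow_succ, pow_zero, one_mul, LinearEquiv.mul_apply, LinearEquiv.coe_one, id_eq]
    apply tvl_eq_of_add
    rcases hz v with h3 | h3 <;> rcases ht v with h4 | h4 <;>
      simp only [h1, h2, h3, h4, hze, htf, map_add] <;> abel_nf <;>
      simp only [tvl_zsmul2, tvl_zsmul4, tvl_zsmul6, tvl_zsmul8, tvl_zsmul10, tvl_zsmul12, tvl_zsmul14,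
        tvl_zsmul16, tvl_zsmul18, tvl_zsmul20, add_zero, zero_add]
  · right
    exact ⟨h1, h2⟩

/-- Three transvection-like involutions pairwise generating `S₃`: a commutation relation. -/
theorem tvl_triple (z t t' : V ≃ₗ[ZMod 2] V) (e f f' : V)
    (hz : ∀ v, z v = v ∨ z v = v + e) (ht : ∀ v, t v = v ∨ t v = v + f)
    (ht' : ∀ v, t' v = v ∨ t' v = v + f')
    (hze : z e = e) (hzf : z f = f + e) (hzf' : z f' = f' + e)
    (hte : t e = e + f) (htf' : t f' = f' + f)
    (ht'e : t' e = e + f') (ht'f : t' f = f + f') :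
    z * t * z * t' = t' * z * t * z := by
  ext v
  simp only [LinearEquiv.mul_apply]
  apply tvl_eq_of_add
  rcases hz v with h3 | h3 <;> rcases ht v with h4 | h4 <;> rcases ht' v with h5 | h5 <;>
    simp only [h3, h4, h5, hze, hzf, hzf', hte, htf', ht'e, ht'f, map_add] <;>
    abel_nf <;>
    simp only [tvl_zsmul2, tvl_zsmul4, tvl_zsmul6, tvl_zsmul8, tvl_zsmul10, tvl_zsmul12, tvl_zsmul14,
        tvl_zsmul16, tvl_zsmul18, tvl_zsmul20, add_zero, zero_add]

/-- Core of the argument: an element `x` of a subgroup of odd-order elements normalized by `P`,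
inverted by the transvection-like involution `z = P * P`, with `z * x` conjugate to `z`,
is trivial. -/
theorem tvl_main (P z x h : V ≃ₗ[ZMod 2] V) (e : V) (hzP : z = P * P) (hzz : z * z = 1)
    (hform : ∀ v, z v = v ∨ z v = v + e)
    (M : Subgroup (V ≃ₗ[ZMod 2] V)) (hM : ∀ m ∈ M, Odd (orderOf m))
    (hPM : ∀ m ∈ M, P⁻¹ * m * P ∈ M) (hx : x ∈ M)
    (hinv0 : z * x * z⁻¹ = x⁻¹) (hconj : z * x = h * z * h⁻¹) : x = 1 := by
  by_contra hx1
  have hzinv : z⁻¹ = z := inv_eq_of_mul_eq_one_left hzz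
  have hinv : z * x * z = x⁻¹ := by rw [hzinv] at hinv0; exact hinv0
  have hodd4 : ∀ m ∈ M, m ^ 4 = 1 → m = 1 := by
    intro m hm h4
    have h1 : orderOf m ∣ 4 := orderOf_dvd_of_pow_eq_one h4
    have h2 : (orderOf m).Coprime 4 := by
      have h5 : (orderOf m).Coprime (2 ^ 2) :=
        Nat.Coprime.pow_right 2 (Nat.coprime_two_right.mpr (hM m hm))
      simpa using h5
    exact orderOf_eq_one_iff.mp (Nat.Coprime.eq_one_of_dvd h2 h1)
  have hodd2 : ∀ m ∈ M, m * m = 1 → m = 1 := by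
    intro m hm h2
    apply hodd4 m hm
    rw [show m ^ 4 = (m * m) * (m * m) by rw [pow_succ, pow_succ, pow_succ, pow_one, mul_assoc],
      h2, one_mul]
  have hze : z e = e := by
    by_cases hall : ∀ v, z v = v
    · exact hall e
    · push Not at hall
      obtain ⟨v, hv⟩ := hall
      have hv' : z v = v + e := (hform v).resolve_left hv
      have h1 : z (z v) = v := by
        have h0 : (z * z) v = v := by rw [hzz]; rfl
        exact h0
      rw [hv', map_add, hv'] at h1
      have h2 : e + z e = 0 := by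
        have h3 : v + (e + z e) = v + 0 := by rw [add_zero, ← add_assoc]; exact h1
        exact add_left_cancel h3
      exact (tvl_eq_of_add h2).symm
  obtain ⟨y, hydef⟩ : ∃ y, y = P⁻¹ * x * P := ⟨_, rfl⟩
  have hy : y ∈ M := hydef ▸ hPM x hx
  have hy1 : y ≠ 1 := by
    intro h1
    apply hx1
    have h2 : x = P * y * P⁻¹ := by rw [hydef]; group
    rw [h2, h1]; group
  have hyinv : z * y * z = y⁻¹ := by
    calc z * y * z = P⁻¹ * (z * x * z) * P := by rw [hydef, hzP]; group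
      _ = P⁻¹ * x⁻¹ * P := by rw [hinv]
      _ = y⁻¹ := by rw [hydef]; group
  obtain ⟨t, htdef⟩ : ∃ t, t = z * x := ⟨_, rfl⟩
  obtain ⟨t', ht'def⟩ : ∃ t', t' = z * y := ⟨_, rfl⟩
  have htt : t * t = 1 := by
    calc t * t = (z * x * z) * x := by rw [htdef]; group
      _ = 1 := by rw [hinv, inv_mul_cancel]
  have ht't' : t' * t' = 1 := by
    calc t' * t' = (z * y * z) * y := by rw [ht'def]; group
      _ = 1 := by rw [hyinv, inv_mul_cancel]
  have hzt : z * t = x := by rw [htdef, ← mul_assoc, hzz, one_mul]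
  have hzt' : z * t' = y := by rw [ht'def, ← mul_assoc, hzz, one_mul]
  have htt' : t * t' = x⁻¹ * y := by
    calc t * t' = (z * x * z) * y := by rw [htdef, ht'def]; group
      _ = x⁻¹ * y := by rw [hinv]
  have hxy : z * t * z * t' = x * y := by rw [hzt, mul_assoc, hzt']
  have ht_conj : t = h * z * h⁻¹ := by rw [htdef]; exact hconj
  have ht'_conj : t' = (P⁻¹ * h) * z * (P⁻¹ * h)⁻¹ := by
    calc t' = P⁻¹ * (z * x) * P := by rw [ht'def, hydef, hzP]; group
      _ = P⁻¹ * (h * z * h⁻¹) * P := by rw [hconj]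
      _ = (P⁻¹ * h) * z * (P⁻¹ * h)⁻¹ := by group
  obtain ⟨hft, hff⟩ := tvl_conj z h e hform hze
  rw [← ht_conj] at hft hff
  obtain ⟨hft', hff'⟩ := tvl_conj z (P⁻¹ * h) e hform hze
  rw [← ht'_conj] at hft' hff'
  rcases tvl_pair z t e (h e) hform hze hft hff with h4 | ⟨r1, r2⟩
  · rw [hzt] at h4
    exact hx1 (hodd4 x hx h4)
  rcases tvl_pair z t' e ((P⁻¹ * h) e) hform hze hft' hff' with h4 | ⟨r3, r4⟩
  · rw [hzt'] at h4
    exact hy1 (hodd4 y hy h4)
  have hcases : y = x ∨ y = x⁻¹ := by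
    rcases tvl_pair t t' (h e) ((P⁻¹ * h) e) hft hff hft' hff' with h4 | ⟨r5, r6⟩
    · left
      rw [htt'] at h4
      have h5 := hodd4 _ (M.mul_mem (M.inv_mem hx) hy) h4
      exact (inv_mul_eq_one.mp h5).symm
    · right
      have hcomm := tvl_triple z t t' e (h e) ((P⁻¹ * h) e) hform hft hft' hze r1 r3 r2 r5 r4 r6
      have h5 : (x * y) * (x * y) = 1 := by
        calc (x * y) * (x * y) = (z * t * z * t') * (t' * z * t * z) := by rw [← hcomm, hxy]
          _ = z * t * z * (t' * t') * z * t * z := by group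
          _ = z * t * (z * z) * t * z := by rw [ht't', mul_one]; group
          _ = z * (t * t) * z := by rw [hzz, mul_one]; group
          _ = 1 := by rw [htt, mul_one, hzz]
      have h6 := hodd2 _ (M.mul_mem hx hy) h5
      exact eq_inv_of_mul_eq_one_right h6
  have hkey : P⁻¹ * y * P = x := by
    rcases hcases with h1 | h1
    · rw [h1, ← hydef, h1]
    · rw [h1]
      calc P⁻¹ * x⁻¹ * P = (P⁻¹ * x * P)⁻¹ := by group
        _ = y⁻¹ := by rw [← hydef]
        _ = x := by rw [h1, inv_inv]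
  have hfin : z * x * z = x := by
    have h8 : z⁻¹ * x * z = x := by
      calc z⁻¹ * x * z = P⁻¹ * (P⁻¹ * x * P) * P := by rw [hzP]; group
        _ = P⁻¹ * y * P := by rw [← hydef]
        _ = x := hkey
    rw [hzinv] at h8
    exact h8
  rw [hfin] at hinv
  have h7 : x * x = 1 := by
    calc x * x = x * x⁻¹ := by rw [← hinv]
      _ = 1 := mul_inv_cancel x
  exact hx1 (hodd2 x hx h7)

end TransvLin

end Cfsg.Agent.Lib.Helper50
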